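import Cfsg.Agent.K9.D20

/-! Simple groups with ten classes and self-centralising elements of orders 5 and 7: `K9.not57`; `K9.not2520`, `K9.nopd`
(helper28). -/
set_option autoImplicit false
set_option linter.unusedSectionVars false
namespace Cfsg.Agent.K9
open Cfsg.Agent.Small Cfsg.Agent.Char

/-- the degrees prime to 5 and those prime to 7 do not fit into a table with ten characters. -/
abbrev Ok (N : ℕ) (A B : Multiset ℕ) : Prop := A.filter (¬ 7 ∣ ·) = B.filter (¬ 5 ∣ ·) → (A + B.filter (5 ∣ ·)).card ≤ 10 →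
  N < ((A + B.filter (5 ∣ ·)).map (· ^ 2)).sum + 1225 * (10 - (A + B.filter (5 ∣ ·)).card) ∨
  ((A + B.filter (5 ∣ ·)).card = 10 ∧ ((A + B.filter (5 ∣ ·)).map (· ^ 2)).sum ≠ N) ∨ ((A + B.filter (5 ∣ ·)).card = 8 ∧
    N - ((A + B.filter (5 ∣ ·)).map (· ^ 2)).sum ∈ [3675, 33075])

def L5x2520 : List (Multiset ℕ) := [↑[1, 4, 4, 14, 21], ↑[1, 4, 6, 6, 9], ↑[1, 4, 9, 9, 21], ↑[1, 4, 9, 24, 36], ↑[1, 6, 14, 14, 21], ↑[1, 9, 14, 14, 36]]

theorem b5x2520 {n e : ℕ} {M : Multiset ℤ} {d : ℤ} (h : PData 2520 5 n e 1 M d) :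
    1 ::ₘ (M.map Int.natAbs + Multiset.replicate ((5 - 1) / e) d.natAbs) ∈ L5x2520 := by
  by_contra hc
  have := h.ex (R := 51) (f := fun _ e k l => Nat.beq k 1 && !decide (
    1 ::ₘ ((l.tail : Multiset ℤ).map Int.natAbs + Multiset.replicate ((5 - 1) / e) l.headI.natAbs) ∈ L5x2520))
    (by omega) (by omega) fun l hl => by
      subst hl
      exact (Bool.not_eq_true' _).mpr (decide_eq_false hc)
  revert this
  decide +kernel

def L7x2520 : List (Multiset ℕ) := [↑[1, 3, 3, 6, 8], ↑[1, 4, 4, 15, 20], ↑[1, 6, 10, 10, 15], ↑[1, 8, 15, 24, 24]]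

theorem b7x2520 {n e : ℕ} {M : Multiset ℤ} {d : ℤ} (h : PData 2520 7 n e 1 M d) :
    1 ::ₘ (M.map Int.natAbs + Multiset.replicate ((7 - 1) / e) d.natAbs) ∈ L7x2520 := by
  by_contra hc
  have := h.ex (R := 51) (f := fun _ e k l => Nat.beq k 1 && !decide (
    1 ::ₘ ((l.tail : Multiset ℤ).map Int.natAbs + Multiset.replicate ((7 - 1) / e) l.headI.natAbs) ∈ L7x2520))
    (by omega) (by omega) fun l hl => by
      subst hl
      exact (Bool.not_eq_true' _).mpr (decide_eq_false hc)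
  revert this
  decide +kernel

theorem c2520 : ∀ A ∈ L5x2520, ∀ B ∈ L7x2520, Ok 2520 A B := by decide +kernel

def L5x40320 : List (Multiset ℕ) := [↑[1, 6, 14, 14, 21], ↑[1, 6, 21, 56, 84], ↑[1, 9, 14, 14, 36], ↑[1, 9, 24, 24, 56], ↑[1, 9, 36, 56, 84], ↑[1, 9, 56, 96, 144]]

theorem b5x40320 {n e : ℕ} {M : Multiset ℤ} {d : ℤ} (h : PData 40320 5 n e 1 M d) :
    1 ::ₘ (M.map Int.natAbs + Multiset.replicate ((5 - 1) / e) d.natAbs) ∈ L5x40320 := by
  by_contra hc
  have := h.ex (R := 201) (f := fun _ e k l => Nat.beq k 1 && !decide (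
    1 ::ₘ ((l.tail : Multiset ℤ).map Int.natAbs + Multiset.replicate ((5 - 1) / e) l.headI.natAbs) ∈ L5x40320))
    (by omega) (by omega) fun l hl => by
      subst hl
      exact (Bool.not_eq_true' _).mpr (decide_eq_false hc)
  revert this
  decide +kernel

def L7x40320 : List (Multiset ℕ) := [↑[1, 6, 6, 15, 20, 20, 36], ↑[1, 6, 8, 15, 48, 90, 120], ↑[1, 6, 15, 15, 15, 20, 20], ↑[1, 6, 15, 20, 20, 90, 120], ↑[1, 6, 15, 48, 64, 64, 90], ↑[1, 8, 15, 36, 90, 90, 120], ↑[1, 8, 15, 48, 48, 48, 120], ↑[1, 15, 20, 20, 36, 36, 48], ↑[1, 15, 20, 20, 48, 48, 120], ↑[1, 15, 20, 36, 64, 64, 160], ↑[1, 15, 36, 36, 36, 36, 160], ↑[1, 15, 36, 64, 64, 90, 90], ↑[1, 15, 48, 48, 48, 64, 64]]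

theorem b7x40320 {n e : ℕ} {M : Multiset ℤ} {d : ℤ} (h : PData 40320 7 n e 1 M d) :
    1 ::ₘ (M.map Int.natAbs + Multiset.replicate ((7 - 1) / e) d.natAbs) ∈ L7x40320 := by
  by_contra hc
  have := h.ex (R := 201) (f := fun _ e k l => Nat.beq k 1 && !decide (
    1 ::ₘ ((l.tail : Multiset ℤ).map Int.natAbs + Multiset.replicate ((7 - 1) / e) l.headI.natAbs) ∈ L7x40320))
    (by omega) (by omega) fun l hl => by
      subst hl
      exact (Bool.not_eq_true' _).mpr (decide_eq_false hc)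
  revert this
  decide +kernel

theorem c40320 : ∀ A ∈ L5x40320, ∀ B ∈ L7x40320, Ok 40320 A B := by decide +kernel

def L5x34020 : List (Multiset ℕ) := [↑[1, 4, 4, 14, 21], ↑[1, 4, 21, 36, 54], ↑[1, 6, 14, 14, 21]]

theorem b5x34020 {n e : ℕ} {M : Multiset ℤ} {d : ℤ} (h : PData 34020 5 n e 1 M d) :
    1 ::ₘ (M.map Int.natAbs + Multiset.replicate ((5 - 1) / e) d.natAbs) ∈ L5x34020 := by
  by_contra hc
  have := h.ex (R := 185) (f := fun _ e k l => Nat.beq k 1 && !decide (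
    1 ::ₘ ((l.tail : Multiset ℤ).map Int.natAbs + Multiset.replicate ((5 - 1) / e) l.headI.natAbs) ∈ L5x34020))
    (by omega) (by omega) fun l hl => by
      subst hl
      exact (Bool.not_eq_true' _).mpr (decide_eq_false hc)
  revert this
  decide +kernel

def L7x34020 : List (Multiset ℕ) := [↑[1, 5, 5, 5, 6]]

theorem b7x34020 {n e : ℕ} {M : Multiset ℤ} {d : ℤ} (h : PData 34020 7 n e 1 M d) :
    1 ::ₘ (M.map Int.natAbs + Multiset.replicate ((7 - 1) / e) d.natAbs) ∈ L7x34020 := by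
  by_contra hc
  have := h.ex (R := 185) (f := fun _ e k l => Nat.beq k 1 && !decide (
    1 ::ₘ ((l.tail : Multiset ℤ).map Int.natAbs + Multiset.replicate ((7 - 1) / e) l.headI.natAbs) ∈ L7x34020))
    (by omega) (by omega) fun l hl => by
      subst hl
      exact (Bool.not_eq_true' _).mpr (decide_eq_false hc)
  revert this
  decide +kernel

theorem c34020 : ∀ A ∈ L5x34020, ∀ B ∈ L7x34020, Ok 34020 A B := by decide +kernel

def L5x29120 : List (Multiset ℕ) := [↑[1, 14, 14, 64, 91], ↑[1, 14, 26, 91, 104]]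

theorem b5x29120 {n e : ℕ} {M : Multiset ℤ} {d : ℤ} (h : PData 29120 5 n e 1 M d) :
    1 ::ₘ (M.map Int.natAbs + Multiset.replicate ((5 - 1) / e) d.natAbs) ∈ L5x29120 := by
  by_contra hc
  have := h.ex (R := 171) (f := fun _ e k l => Nat.beq k 1 && !decide (
    1 ::ₘ ((l.tail : Multiset ℤ).map Int.natAbs + Multiset.replicate ((5 - 1) / e) l.headI.natAbs) ∈ L5x29120))
    (by omega) (by omega) fun l hl => by
      subst hl
      exact (Bool.not_eq_true' _).mpr (decide_eq_false hc)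
  revert this
  decide +kernel

def L7x29120 : List (Multiset ℕ) := [↑[1, 64, 65, 65, 65]]

theorem b7x29120 {n e : ℕ} {M : Multiset ℤ} {d : ℤ} (h : PData 29120 7 n e 1 M d) :
    1 ::ₘ (M.map Int.natAbs + Multiset.replicate ((7 - 1) / e) d.natAbs) ∈ L7x29120 := by
  by_contra hc
  have := h.ex (R := 171) (f := fun _ e k l => Nat.beq k 1 && !decide (
    1 ::ₘ ((l.tail : Multiset ℤ).map Int.natAbs + Multiset.replicate ((7 - 1) / e) l.headI.natAbs) ∈ L7x29120))
    (by omega) (by omega) fun l hl => by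
      subst hl
      exact (Bool.not_eq_true' _).mpr (decide_eq_false hc)
  revert this
  decide +kernel

theorem c29120 : ∀ A ∈ L5x29120, ∀ B ∈ L7x29120, Ok 29120 A B := by decide +kernel

theorem fin57 {N : ℕ} {D : Multiset ℕ} (hc : D.card = 10) (hs : (D.map (· ^ 2)).sum = N) (hp : ∀ n ∈ D, 0 < n)
    (h : Ok N (D.filter (¬ 5 ∣ ·)) (D.filter (¬ 7 ∣ ·))) : False := by
  have e : D = D.filter (¬ 5 ∣ ·) + (D.filter (¬ 7 ∣ ·)).filter (5 ∣ ·) + (D.filter (5 ∣ ·)).filter (7 ∣ ·) := by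
    rw [Multiset.filter_comm, add_assoc, add_comm (Multiset.filter (¬ 7 ∣ ·) _), Multiset.filter_add_not, add_comm,
      Multiset.filter_add_not]
  have h3 : ∀ n ∈ (D.filter (5 ∣ ·)).filter (7 ∣ ·), ∃ u, 0 < u ∧ n = 35 * u := fun n hn => by
    simp only [Multiset.mem_filter] at hn
    have := hp n hn.1.1
    exact ⟨n / 35, by omega, by omega⟩
  have h1 := h (by simp only [Multiset.filter_filter, and_comm])
  rw [e, Multiset.card_add] at hc
  rw [e, Multiset.map_add, Multiset.sum_add] at hs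
  generalize (D.filter (5 ∣ ·)).filter (7 ∣ ·) = R at hc hs h3
  generalize D.filter (¬ 5 ∣ ·) + (D.filter (¬ 7 ∣ ·)).filter (5 ∣ ·) = T at hc hs h1
  have h4 : R.card * 1225 ≤ (R.map (· ^ 2)).sum := by
    have := Multiset.card_nsmul_le_sum (s := R.map (· ^ 2)) (a := 1225) fun x hx => by
      obtain ⟨n, hn, rfl⟩ := Multiset.mem_map.1 hx
      obtain ⟨u, hu, rfl⟩ := h3 n hn
      nlinarith
    simpa using this
  rcases h1 (by omega) with c | ⟨c, c'⟩ | ⟨c, c'⟩
  · omega
  · obtain rfl : R = 0 := Multiset.card_eq_zero.1 (by omega)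
    exact c' (by simpa using hs)
  · obtain ⟨a, b, rfl⟩ := Multiset.card_eq_two.1 (show R.card = 2 by omega)
    obtain ⟨u, hu, rfl⟩ := h3 a (by simp)
    obtain ⟨v, hv, rfl⟩ := h3 b (by simp)
    simp only [Multiset.insert_eq_cons, Multiset.map_cons, Multiset.map_singleton, Multiset.sum_cons, Multiset.sum_singleton,
      List.mem_cons, List.not_mem_nil, or_false, ← hs, Nat.add_sub_cancel_left] at c'
    have h0 : (35 * u) ^ 2 + (35 * v) ^ 2 ≤ 33075 := by omega
    have h4 : u ≤ 5 := by by_contra c; nlinarith [Nat.mul_self_le_mul_self (show 6 ≤ u by omega), sq_nonneg v]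
    have h5 : v ≤ 5 := by by_contra c; nlinarith [Nat.mul_self_le_mul_self (show 6 ≤ v by omega), sq_nonneg u]
    interval_cases u <;> interval_cases v <;> omega

theorem k2520 {p n e k : ℕ} {M : Multiset ℤ} {d : ℤ} (hp : p = 5 ∨ p = 7) (h : PData 2520 p n e k M d) : k = 1 := by
  by_contra hc
  have := h.ex (R := 51) (f := fun _ _ k _ => !Nat.beq k 1) (by omega) (by omega) fun l _ => nb.2 hc
  revert this
  rcases hp with rfl | rfl <;> decide +kernel

theorem pdno : ∀ u ∈ [(29160, 5, 171), (92160, 5, 304), (174960, 5, 419), (21560, 5, 147), (30720, 5, 176), (58320, 5, 242),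
    (349920, 5, 592), (21504, 7, 147), (32256, 7, 180), (16320, 17, 128)],
    u.1 < u.2.2 * u.2.2 ∧ ex u.1 u.2.2 u.2.1 (fun _ _ k _ => Nat.beq k 1) = false := by decide +kernel

variable {G : Type*} [Group G] [Finite G] [IsSimpleGroup G] (hG : ¬ IsCyclic G)
include hG

theorem nopd {p R : ℕ} (hp : p.Prime) {x : G} (x1 : x ≠ 1) (hx : cz x = p) (hR : Nat.card G < R * R) :
    ex (Nat.card G) R p (fun _ _ k _ => Nat.beq k 1) ≠ false := by
  have := Fact.mk hp
  obtain ⟨X, φ, δ, ε, s⟩ := (defOne_of_cz x1 hx).exists_pshape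
  have d := s.pdata hG
  rw [Subgroup.card_bot] at d
  rw [d.ex hp.one_lt hR fun _ _ => rfl]
  decide

theorem not57 [Fact (Nat.Prime 5)] [Fact (Nat.Prime 7)] (h : Nat.card G ∈ [2520, 40320, 34020, 29120])
    (hk : Nat.card (ConjClasses G) = 10) {x y : G} (hx : DefOne 5 x ⊥) (hy : DefOne 7 y ⊥) : False := by
  obtain ⟨X, φ, δ, ε, s⟩ := hx.exists_pshape
  obtain ⟨X', φ', δ', ε', s'⟩ := hy.exists_pshape
  have d := s.pdata hG
  have d' := s'.pdata hG
  rw [Subgroup.card_bot] at d d'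
  refine fin57 (D := degM G) (by rw [card_degM, card_irr_eq_card_conjClasses, hk]) sum_sq_degM (fun _ => pos_of_mem_degM) ?_
  have e := s.filter_degM
  have e' := s'.filter_degM
  simp only [List.mem_cons, List.not_mem_nil, or_false] at h
  rcases h with h | h | h | h <;> rw [h] at d d' ⊢
  · exact c2520 _ (by convert b5x2520 d using 1) _ (by convert b7x2520 d' using 1)
  · exact c40320 _ (by convert b5x40320 d using 1) _ (by convert b7x40320 d' using 1)
  · exact c34020 _ (by convert b5x34020 d using 1) _ (by convert b7x34020 d' using 1)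
  · exact c29120 _ (by convert b5x29120 d using 1) _ (by convert b7x29120 d' using 1)

theorem not2520 (h : Nat.card G = 2520) : Nat.card (ConjClasses G) ≠ 10 := fun hk => by
  have : Fact (Nat.Prime 5) := ⟨by norm_num⟩
  have : Fact (Nat.Prime 7) := ⟨by norm_num⟩
  obtain ⟨x, K, hx⟩ := exists_defOne_of_dvd (G := G) (p := 5) (by rw [h]; norm_num) (by rw [h]; norm_num)
  obtain ⟨y, K', hy⟩ := exists_defOne_of_dvd (G := G) (p := 7) (by rw [h]; norm_num) (by rw [h]; norm_num)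
  obtain rfl : K = ⊥ := by
    have := Fintype.ofFinite K
    obtain ⟨X, φ, δ, ε, s⟩ := hx.exists_pshape
    exact Subgroup.card_eq_one.1 (k2520 (.inl rfl) (h ▸ s.pdata hG))
  obtain rfl : K' = ⊥ := by
    have := Fintype.ofFinite K'
    obtain ⟨X, φ, δ, ε, s⟩ := hy.exists_pshape
    exact Subgroup.card_eq_one.1 (k2520 (.inr rfl) (h ▸ s.pdata hG))
  exact not57 hG (by simp [h]) hk hx hy

end Cfsg.Agent.K9
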