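import Cfsg.Agent.K9.Grp
import Cfsg.Agent.Small.Sweep

/-! A simple group of order 20160 with self-centralising elements of orders 5 and 7 does not have nine classes:
`K9.not20160` (helper28). -/
set_option autoImplicit false
set_option linter.unusedSectionVars false
namespace Cfsg.Agent.K9
open Cfsg.Agent.Small Cfsg.Agent.Char

def LA : List (Multiset ℕ) := [↑[1, 64, 63, 63], ↑[1, 9, 8, 8], ↑[1, 4, 3, 3], ↑[1, 6, 7, 7]]
def LB : List (Multiset ℕ) := [↑[1, 48, 15, 32, 32], ↑[1, 20, 15, 4, 4], ↑[1, 20, 64, 45, 45], ↑[1, 6, 8, 3, 3],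
  ↑[1, 6, 15, 10, 10], ↑[1, 8, 15, 24, 24], ↑[1, 8, 36, 45, 45], ↑[1, 15, 64, 80, 80]]

theorem five20160 {n e : ℕ} {M : Multiset ℤ} {d : ℤ} (h : PData 20160 5 n e 1 M d) :
    1 ::ₘ (M.map Int.natAbs + Multiset.replicate ((5 - 1) / e) d.natAbs) ∈ LA := by
  by_contra hc
  have := h.ex (R := 142) (f := fun _ e k l => !decide (k = 1 →
    1 ::ₘ ((l.tail : Multiset ℤ).map Int.natAbs + Multiset.replicate ((5 - 1) / e) l.headI.natAbs) ∈ LA))
    (by omega) (by omega) fun l hl => by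
      subst hl
      exact (Bool.not_eq_true' _).mpr (decide_eq_false fun c => hc (c rfl))
  revert this
  decide +kernel

theorem seven20160 {n e : ℕ} {M : Multiset ℤ} {d : ℤ} (h : PData 20160 7 n e 1 M d) :
    1 ::ₘ (M.map Int.natAbs + Multiset.replicate ((7 - 1) / e) d.natAbs) ∈ LB := by
  by_contra hc
  have := h.ex (R := 142) (f := fun _ e k l => !decide (k = 1 →
    1 ::ₘ ((l.tail : Multiset ℤ).map Int.natAbs + Multiset.replicate ((7 - 1) / e) l.headI.natAbs) ∈ LB))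
    (by omega) (by omega) fun l hl => by
      subst hl
      exact (Bool.not_eq_true' _).mpr (decide_eq_false fun c => hc (c rfl))
  revert this
  decide +kernel

theorem compat : ∀ A ∈ LA, ∀ B ∈ LB, A.filter (¬ 7 ∣ ·) = B.filter (¬ 5 ∣ ·) → (A + B.filter (5 ∣ ·)).card = 7 ∧
    ((A + B.filter (5 ∣ ·)).map (· ^ 2)).sum ∈ [16485, 25060, 560] := by decide +kernel

theorem fin20160 {D : Multiset ℕ} (hc : D.card = 9) (hs : (D.map (· ^ 2)).sum = 20160) (hp : ∀ n ∈ D, 0 < n)
    (hA : D.filter (¬ 5 ∣ ·) ∈ LA) (hB : D.filter (¬ 7 ∣ ·) ∈ LB) : False := by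
  obtain ⟨h1, h2⟩ := compat _ hA _ hB (by simp only [Multiset.filter_filter, and_comm])
  have e : D = D.filter (¬ 5 ∣ ·) + (D.filter (¬ 7 ∣ ·)).filter (5 ∣ ·) + (D.filter (5 ∣ ·)).filter (7 ∣ ·) := by
    rw [Multiset.filter_comm, add_assoc, add_comm (Multiset.filter (¬ 7 ∣ ·) _), Multiset.filter_add_not, add_comm,
      Multiset.filter_add_not]
  have h3 : ∀ n ∈ (D.filter (5 ∣ ·)).filter (7 ∣ ·), ∃ u, 0 < u ∧ n = 35 * u := fun n hn => by
    simp only [Multiset.mem_filter] at hn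
    have := hp n hn.1.1
    exact ⟨n / 35, by omega, by omega⟩
  rw [e, Multiset.card_add, h1] at hc
  rw [e, Multiset.map_add, Multiset.sum_add] at hs
  obtain ⟨a, b, e2⟩ := Multiset.card_eq_two.1 (show ((D.filter (5 ∣ ·)).filter (7 ∣ ·)).card = 2 by omega)
  rw [e2] at hs h3
  obtain ⟨u, hu, rfl⟩ := h3 a (by simp)
  obtain ⟨v, hv, rfl⟩ := h3 b (by simp)
  simp only [Multiset.insert_eq_cons, Multiset.map_cons, Multiset.map_singleton, Multiset.sum_cons, Multiset.sum_singleton,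
    List.mem_cons, List.not_mem_nil, or_false] at hs h2
  have h0 : (35 * u) ^ 2 + (35 * v) ^ 2 ≤ 20160 := hs ▸ Nat.le_add_left _ _
  have h4 : u ≤ 4 := by by_contra c; nlinarith [Nat.mul_self_le_mul_self (show 5 ≤ u by omega), sq_nonneg v]
  have h5 : v ≤ 4 := by by_contra c; nlinarith [Nat.mul_self_le_mul_self (show 5 ≤ v by omega), sq_nonneg u]
  interval_cases u <;> interval_cases v <;> omega

theorem not20160 {G : Type*} [Group G] [Finite G] [IsSimpleGroup G] (hG : ¬ IsCyclic G) (h : Nat.card G = 20160)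
    (hk : Nat.card (ConjClasses G) = 9) {x y : G} (x1 : x ≠ 1) (y1 : y ≠ 1) (hx : cz x = 5) (hy : cz y = 7) : False := by
  have : Fact (Nat.Prime 5) := ⟨by norm_num⟩
  have : Fact (Nat.Prime 7) := ⟨by norm_num⟩
  obtain ⟨X, φ, δ, ε, s⟩ := (defOne_of_cz x1 hx).exists_pshape
  obtain ⟨X', φ', δ', ε', s'⟩ := (defOne_of_cz y1 hy).exists_pshape
  have d := s.pdata hG
  have d' := s'.pdata hG
  rw [h, Subgroup.card_bot] at d d'
  refine fin20160 (D := degM G) (by rw [card_degM, card_irr_eq_card_conjClasses, hk]) (h ▸ sum_sq_degM)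
    (fun _ => pos_of_mem_degM) ?_ ?_
  · convert five20160 d using 1
    convert s.filter_degM
  · convert seven20160 d' using 1
    convert s'.filter_degM

end Cfsg.Agent.K9
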