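import Cfsg.Agent.K9.Num
import Cfsg.Agent.Small.DegM
import Cfsg.Agent.Small.Data
import Cfsg.Agent.Small.SelfCent
import Cfsg.Agent.FG.Count

/-! The class data of a finite simple group: `K9.exists_cd` (helper28). -/
set_option autoImplicit false
set_option linter.unusedSectionVars false
namespace Cfsg.Agent.K9
open Cfsg.Agent.Small Cfsg.Agent.Char Subgroup
open scoped _root_.Classical

variable {G : Type*} [Group G] [Finite G]

/-- the order of the centraliser. -/
noncomputable def cz (g : G) : ℕ := Nat.card (centralizer ({g} : Set G))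

theorem cz_index (g : G) : Nat.card G / cz g = (centralizer ({g} : Set G)).index :=
  Nat.div_eq_of_eq_mul_right Nat.card_pos (card_mul_index _).symm

theorem cz_dvd (g : G) : cz g ∣ Nat.card G := card_subgroup_dvd_card _

theorem cz_conj {a b : G} (h : IsConj a b) : cz a = cz b := by
  have h1 : (centralizer ({a} : Set G)).index = (centralizer ({b} : Set G)).index := by
    rw [← card_isConj_eq_index, ← card_isConj_eq_index]
    exact Nat.card_congr (Equiv.subtypeEquivRight fun y => ⟨h.symm.trans, h.trans⟩)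
  refine Nat.eq_of_mul_eq_mul_right (Nat.pos_of_ne_zero (index_ne_zero_of_finite (H := centralizer ({a} : Set G)))) ?_
  rw [cz, card_mul_index, h1, cz, card_mul_index]

theorem ord_dvd_cz {a b : G} (h : a * b = b * a) : orderOf a ∣ cz b := by
  have := orderOf_dvd_natCard (⟨a, mem_centralizer_singleton_iff.2 h⟩ : centralizer ({b} : Set G))
  rwa [Subgroup.orderOf_mk] at this

theorem cz_dvd_of_mem {a b : G} (h : a ∈ zpowers b) : cz b ∣ cz a := card_dvd_of_le fun g hg => by
  obtain ⟨n, rfl⟩ := mem_zpowers_iff.1 h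
  exact mem_centralizer_singleton_iff.2 (Commute.zpow_right (mem_centralizer_singleton_iff.1 hg) n)

theorem exists_comm {g : G} {p : ℕ} (hp : p.Prime) (h : p ∣ cz g) : ∃ y : G, orderOf y = p ∧ y * g = g * y := by
  have := Fact.mk hp
  obtain ⟨y, hy⟩ := exists_prime_orderOf_dvd_card' (G := centralizer ({g} : Set G)) p h
  exact ⟨y, (Subgroup.orderOf_coe y).trans hy, mem_centralizer_singleton_iff.1 y.2⟩

theorem sq_dvd_cz {g : G} {p n : ℕ} (hp : p.Prime) (hg : orderOf g ∣ p ^ n) (h : p * p ∣ Nat.card G) : p * p ∣ cz g := by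
  have := Fact.mk hp
  obtain ⟨m, -, hm⟩ := (Nat.dvd_prime_pow hp).1 hg
  obtain ⟨P, hP⟩ := (IsPGroup.of_card ((Nat.card_zpowers g).trans hm)).exists_le_sylow
  let y : (P : Subgroup G) := ⟨g, hP (mem_zpowers g)⟩
  have h1 : p * p ∣ Nat.card P := (Nat.Coprime.mul_left (((Nat.Prime.coprime_iff_not_dvd hp).2 P.not_dvd_index))
    ((Nat.Prime.coprime_iff_not_dvd hp).2 P.not_dvd_index)).dvd_of_dvd_mul_right ((card_mul_index (P : Subgroup G)).symm ▸ h)
  have h2 : cz y ∣ cz g := by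
    rw [cz, ← card_map_of_injective (P : Subgroup G).subtype_injective]
    refine card_dvd_of_le ?_
    rintro _ ⟨z, hz, rfl⟩
    exact mem_centralizer_singleton_iff.2 (congrArg Subtype.val (mem_centralizer_singleton_iff.1 hz))
  refine dvd_trans ?_ h2
  have : Nontrivial P := Finite.one_lt_card_iff_nontrivial.1 (lt_of_lt_of_le (by nlinarith [hp.two_le]) (Nat.le_of_dvd Nat.card_pos h1))
  have := P.2.center_nontrivial
  have h3 : center P ≤ centralizer {y} := center_le_centralizer _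
  by_cases h4 : center P = centralizer {y}
  · have h5 : y ∈ center P := h4 ▸ mem_centralizer_singleton_iff.2 rfl
    rwa [cz, centralizer_eq_top_iff_subset.2 (Set.singleton_subset_iff.2 h5), card_top]
  · obtain ⟨a, ha, e1⟩ := (P.2.to_subgroup (center P)).nontrivial_iff_card.1 this
    obtain ⟨b, e2⟩ := IsPGroup.iff_card.1 (P.2.to_subgroup (centralizer {y}))
    have h5 : Nat.card (center P) < Nat.card (centralizer ({y} : Set P)) :=
      lt_of_not_ge fun c => h4 (eq_of_le_of_card_ge h3 c)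
    rw [e1, e2, Nat.pow_lt_pow_iff_right hp.one_lt] at h5
    rw [cz, e2, ← sq]
    exact pow_dvd_pow _ (by omega)

theorem defOne_of_cz {x : G} {p : ℕ} [hp : Fact p.Prime] (h1 : x ≠ 1) (h : cz x = p) : DefOne p x ⊥ := by
  have h2 : orderOf x = p := ((Nat.dvd_prime hp.out).1 (h ▸ ord_dvd_cz rfl)).resolve_left (mt orderOf_eq_one_iff.1 h1)
  refine defOne_bot h2 (eq_of_le_of_card_ge (zpowers_le.2 (mem_centralizer_singleton_iff.2 rfl)) ?_).symm
  rw [Nat.card_zpowers, h2]; exact h.le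

theorem cz_of_ord {x y : G} {p : ℕ} [hp : Fact p.Prime] (h : DefOne p x ⊥) (hy : orderOf y = p) : cz y = p := by
  obtain ⟨j, hj, hc⟩ := h.exists_conj_of_orderOf hy
  have h1 : zpowers (xp x j) = zpowers x :=
    eq_of_le_of_card_ge (zpowers_le.2 (xp_mem x j)) (by rw [Nat.card_zpowers, Nat.card_zpowers, orderOf_xp h.ord hj, h.ord])
  rw [cz_conj hc, Nat.dvd_antisymm (cz_dvd_of_mem (h1 ▸ mem_zpowers x)) (cz_dvd_of_mem (xp_mem x j)), cz, h.centralizer_bot,
    Nat.card_zpowers, h.ord]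

theorem ord_of_dvd {x g : G} {p : ℕ} [hp : Fact p.Prime] (h : DefOne p x ⊥) (h1 : g ≠ 1) (hd : p ∣ cz g) : orderOf g = p := by
  obtain ⟨y, hy, hc⟩ := exists_comm hp.out hd
  exact ((Nat.dvd_prime hp.out).1 (cz_of_ord h hy ▸ ord_dvd_cz hc.symm)).resolve_left (mt orderOf_eq_one_iff.1 h1)

/-- centraliser order and element order of a class. -/
noncomputable def fc : ConjClasses G → ℕ × ℕ :=
  Quotient.lift (fun g => (cz g, orderOf g)) fun _ _ h => by rw [cz_conj h, orderOf_eq_of_isConj h]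

theorem mk_ne {g : G} : ConjClasses.mk g ≠ ConjClasses.mk 1 ↔ g ≠ 1 := by
  rw [Ne, ConjClasses.mk_eq_mk_iff_isConj, isConj_one_left]

theorem cnt [Fintype G] [Fintype (ConjClasses G)] {L : List (ℕ × ℕ)}
    (hL : (L : Multiset (ℕ × ℕ)) = (Finset.univ.erase (ConjClasses.mk (1 : G))).val.map fc) (q : ℕ × ℕ → Bool) :
    ((L.filter q).map fun a => Nat.card G / a.1).sum = (Finset.univ.filter fun g : G => g ≠ 1 ∧ q (cz g, orderOf g)).card := by
  have e : L.filter q = L.filter fun a => decide (q a = true) := by simp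
  rw [e, ← Multiset.sum_coe, ← Multiset.map_coe, ← Multiset.filter_coe, hL, Multiset.filter_map, Multiset.map_map,
    Finset.card_eq_sum_card_fiberwise (f := ConjClasses.mk)
      (t := (Finset.univ.erase (ConjClasses.mk (1 : G))).filter fun C => q (fc C) = true) fun g hg => by
        simp only [Finset.coe_filter, Finset.mem_univ, true_and, Set.mem_ofPred_eq, Finset.mem_erase, and_true] at hg ⊢
        exact ⟨mk_ne.2 hg.1, hg.2⟩]
  change ∑ C ∈ (Finset.univ.erase (ConjClasses.mk (1 : G))).filter (fun C => q (fc C) = true), Nat.card G / (fc C).1 = _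
  refine Finset.sum_congr rfl fun C hC => ?_
  obtain ⟨g, rfl⟩ := ConjClasses.mk_surjective C
  simp only [Finset.mem_filter, Finset.mem_erase, Finset.mem_univ, and_true] at hC
  change Nat.card G / cz g = _
  rw [cz_index, ← card_isConj_eq_index, Nat.subtype_card]
  intro y
  simp only [Finset.mem_filter, Finset.mem_univ, true_and]
  refine ⟨fun e => (ConjClasses.mk_eq_mk_iff_isConj.1 e.2).symm, fun e => ?_⟩
  have := ConjClasses.mk_eq_mk_iff_isConj.2 e
  exact ⟨⟨mk_ne.1 (this ▸ hC.1), (congrArg (fun C => q (fc C)) this).symm.trans hC.2⟩, this.symm⟩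

theorem blk_le [IsSimpleGroup G] (hG : ¬ IsCyclic G) {x : G} {p : ℕ} [hp : Fact p.Prime] (h : DefOne p x ⊥) :
    2 ≤ Nat.card E[h] ∧ Nat.card E[h] + E[h].index ≤ Nat.card (ConjClasses G) := by
  obtain ⟨X, φ, δ, ε, s⟩ := h.exists_pshape
  have d := s.pdata hG
  have h1 := Multiset.card_le_card (Multiset.filter_le (¬ p ∣ ·) (degM G))
  rw [s.filter_degM, card_degM, card_irr_eq_card_conjClasses, Multiset.card_cons, Multiset.card_add, Multiset.card_map,
    Multiset.card_replicate, ← index_EE] at h1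
  have := d.len
  exact ⟨d.e1, by omega⟩

theorem exists_cd [IsSimpleGroup G] (hG : ¬ IsCyclic G) : ∃ L : List (ℕ × ℕ), CD (Nat.card (ConjClasses G)) (Nat.card G) L ∧
    L.length + 1 = Nat.card (ConjClasses G) ∧ ∀ a, a ∈ L ↔ ∃ g : G, g ≠ 1 ∧ a = (cz g, orderOf g) := by
  have := Fintype.ofFinite G
  have := Fintype.ofFinite (ConjClasses G)
  obtain ⟨L, hs, hL⟩ : ∃ L : List (ℕ × ℕ), (L.Pairwise fun a b => a.1 < b.1 ∨ a.1 = b.1 ∧ b.2 ≤ a.2) ∧
      (L : Multiset (ℕ × ℕ)) = (Finset.univ.erase (ConjClasses.mk (1 : G))).val.map fc :=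
    ⟨_, (List.pairwise_mergeSort (le := fun a b : ℕ × ℕ => decide (a.1 < b.1 ∨ a.1 = b.1 ∧ b.2 ≤ a.2))
      (fun a b c h1 h2 => by simp only [decide_eq_true_eq] at *; omega)
      (fun a b => by simp only [Bool.or_eq_true, decide_eq_true_eq]; omega) _).imp of_decide_eq_true,
      (Multiset.coe_eq_coe.2 (List.mergeSort_perm _ _)).trans (Multiset.coe_toList _)⟩
  have hm : ∀ a, a ∈ L ↔ ∃ g : G, g ≠ 1 ∧ a = (cz g, orderOf g) := fun a => by
    rw [← Multiset.mem_coe, hL, Multiset.mem_map]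
    refine ⟨fun ⟨C, h1, h2⟩ => ?_, fun ⟨g, h1, h2⟩ => ⟨ConjClasses.mk g, Finset.mem_erase.2 ⟨mk_ne.2 h1, Finset.mem_univ _⟩, h2.symm⟩⟩
    obtain ⟨g, rfl⟩ := ConjClasses.mk_surjective C
    exact ⟨g, mk_ne.1 (Finset.mem_erase.1 h1).1, h2.symm⟩
  have hc : ∀ n, sm (Nat.card G) L n = Nat.card {g : G // g ^ n = 1} := fun n => by
    rw [sm, cnt hL, Nat.subtype_card (Finset.univ.filter fun g : G => g ^ n = 1) (by simp), add_comm,
      ← Finset.card_erase_add_one (a := (1 : G)) (s := Finset.univ.filter fun g : G => g ^ n = 1) (by simp)]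
    congr 2
    ext g
    simp [← Nat.dvd_iff_mod_eq_zero, orderOf_dvd_iff_pow_eq_one]
  refine ⟨L, ⟨Nat.card_pos, hs, fun a ha => ?_, ?_, fun a ha p hp h1 h2 => ?_, fun a ha p hp h1 h2 => ?_,
    fun a ha p hp h1 h2 => ?_, fun p hp h1 => ?_, fun n hn => hc n ▸ FG.dvd_card_pow_eq_one hn, fun p hp h1 q h2 h3 h4 h5 => ?_,
    fun p hp h1 => ?_⟩, ?_, hm⟩
  · obtain ⟨g, h1, rfl⟩ := (hm a).1 ha
    exact ⟨lt_of_le_of_ne (orderOf_pos g) fun e => h1 (orderOf_eq_one_iff.1 e.symm), ord_dvd_cz rfl, cz_dvd g⟩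
  · have := cnt hL fun _ => true
    rw [List.filter_true] at this
    rw [this, add_comm, Nat.card_eq_fintype_card, ← Finset.card_univ, ← Finset.card_erase_add_one (Finset.mem_univ (1 : G))]
    congr 2
    ext g
    simp
  · obtain ⟨g, h0, rfl⟩ := (hm a).1 ha
    obtain ⟨y, hy, e⟩ := exists_comm hp h1
    have h3 := (Nat.Prime.coprime_iff_not_dvd hp).2 h2
    have h4 : orderOf (y * g) = p * orderOf g := hy ▸ Commute.orderOf_mul_eq_mul_orderOf_of_coprime e (hy ▸ h3)
    refine ⟨_, (hm _).2 ⟨y * g, fun c => ?_, rfl⟩, h4, cz_dvd_of_mem ?_⟩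
    · rw [c, orderOf_one] at h4
      exact hp.one_lt.ne' (Nat.eq_one_of_mul_eq_one_right h4.symm)
    · have h5 : (y * g) ^ p = g ^ p := by rw [Commute.mul_pow e, ← hy, pow_orderOf_eq_one, one_mul]
      exact zpowers_le.2 (pow_mem (mem_zpowers _) p) (h5 ▸ mem_zpowers_pow_iff.2 h3)
  · obtain ⟨g, h0, rfl⟩ := (hm a).1 ha
    refine ⟨_, (hm _).2 ⟨g ^ p, fun c => h2 (Nat.dvd_antisymm (orderOf_dvd_of_pow_eq_one c) h1), rfl⟩, ?_,
      cz_dvd_of_mem (pow_mem (mem_zpowers g) p)⟩
    exact (congrArg (· * p) (orderOf_pow_of_dvd hp.ne_zero h1)).trans (Nat.div_mul_cancel h1)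
  · obtain ⟨g, h0, rfl⟩ := (hm a).1 ha
    exact sq_dvd_cz hp h1 h2
  · have := Fact.mk hp
    obtain ⟨y, hy⟩ := exists_prime_orderOf_dvd_card' p h1
    exact ⟨_, (hm _).2 ⟨y, fun c => hp.one_lt.ne' (by rw [← hy, c, orderOf_one]), rfl⟩, hy⟩
  · have := Fact.mk hp
    have key : ∀ P : Sylow p G, ((P : Subgroup G) : Set G) = {g | g ^ q = 1} := fun P => by
      obtain ⟨m, hm⟩ := IsPGroup.iff_card.1 P.2
      have h6 : Nat.card P ∣ q := (hm ▸ Nat.Coprime.pow_left m ((Nat.Prime.coprime_iff_not_dvd hp).2 h4) :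
        (Nat.card P).Coprime _).dvd_of_dvd_mul_right ((Nat.mul_div_cancel' h2).symm ▸ card_subgroup_dvd_card (P : Subgroup G))
      have h7 : q ∣ Nat.card P := (Nat.Coprime.coprime_dvd_left h3 (Nat.Coprime.pow_left _
        ((Nat.Prime.coprime_iff_not_dvd hp).2 P.not_dvd_index))).dvd_of_dvd_mul_right ((card_mul_index (P : Subgroup G)).symm ▸ h2)
      refine Set.eq_of_subset_of_ncard_le (fun g hg => orderOf_dvd_iff_pow_eq_one.1 ((orderOf_dvd_natCard _ hg).trans h6)) ?_
      rw [← Nat.card_coe_set_eq, ← Nat.card_coe_set_eq]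
      exact ((hc q).symm.trans h5).le.trans (Nat.le_of_dvd Nat.card_pos h7)
    exact card_sylow_ne_one_of_simple hG h1 (Nat.card_eq_one_iff_unique.2
      ⟨⟨fun P Q => Sylow.ext (SetLike.coe_injective ((key P).trans (key Q).symm))⟩, inferInstance⟩)
  · have := Fact.mk hp
    obtain ⟨a, ha, e⟩ := List.mem_map.1 h1
    obtain ⟨x, h0, rfl⟩ := (hm a).1 ha
    have h := defOne_of_cz h0 e
    have h2 : (L.map Prod.fst).count p = E[h].index := by
      rw [← h.card_classes, ← Multiset.coe_count, ← Multiset.map_coe, hL, Multiset.map_map, Multiset.count_map,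
        Nat.subtype_card ((Finset.univ.erase (ConjClasses.mk (1 : G))).filter fun C => p = (Prod.fst ∘ fc) C)]
      · rfl
      intro C
      obtain ⟨g, rfl⟩ := ConjClasses.mk_surjective C
      simp only [Finset.mem_filter, Finset.mem_erase, Finset.mem_univ, and_true]
      refine ⟨fun c => ⟨g, rfl, ord_of_dvd h (mk_ne.1 c.1) (dvd_of_eq c.2)⟩, fun ⟨y, c1, c2⟩ => c1 ▸
        ⟨mk_ne.2 fun c => hp.one_lt.ne' (by rw [← c2, c, orderOf_one]), (cz_of_ord h c2).symm⟩⟩
    refine ⟨fun c hc hd => ?_, _, h2 ▸ index_mul_card_EE _, h2 ▸ blk_le hG h⟩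
    obtain ⟨a, ha, rfl⟩ := List.mem_map.1 hc
    obtain ⟨g, h0, rfl⟩ := (hm a).1 ha
    exact cz_of_ord h (ord_of_dvd h h0 hd)
  · rw [← Multiset.coe_card, hL, Multiset.card_map, Finset.card_val, Finset.card_erase_add_one (Finset.mem_univ _),
      Finset.card_univ, Nat.card_eq_fintype_card]

end Cfsg.Agent.K9
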