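import Cfsg.Agent.Comp.Class

/-! Class equations of simple groups with few conjugacy classes: the data `K9.CD` (centraliser orders and element orders of
the non-trivial classes), the kernel search `K9.srch` and its soundness `K9.CD.srch` (helper28). -/

set_option autoImplicit false
namespace Cfsg.Agent.K9
open Cfsg.Agent.Comp

/-- the primes dividing `n` (trial division from `p` on). -/
def pf : ℕ → ℕ → ℕ → List ℕ
  | 0, _, _ => []
  | f + 1, n, p => bif Nat.blt n (p * p) then (bif Nat.blt n 2 then [] else [n]) else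
      bif Nat.beq (n % p) 0 then force (n / p) fun m => bif Nat.beq (m % p) 0 then pf f m p else p :: pf f m p
      else force (p + 1) fun q => pf f n q

/-- the divisors of `n` (or a list containing `0`). -/
def dv : ℕ → ℕ → ℕ → List ℕ
  | 0, _, _ => [0]
  | f + 1, n, p => bif Nat.blt n (p * p) then [1, n] else
      bif Nat.beq (n % p) 0 then force (n / p) fun m => forceL (dv f m p) fun l =>
        l ++ filterL (fun d => !Nat.beq (m % d) 0) (l.map (p * ·))
      else force (p + 1) fun q => dv f n q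

def okc (k p t : ℕ) : Bool := Nat.beq ((p - 1) % t) 0 && Nat.ble 2 ((p - 1) / t) && Nat.ble ((p - 1) / t + t) k

def sm (N : ℕ) (L : List (ℕ × ℕ)) (n : ℕ) : ℕ := 1 + ((L.filter fun a => Nat.beq (n % a.2) 0).map fun a => N / a.1).sum

def bad (N : ℕ) (P : List ℕ) (L : List (ℕ × ℕ)) : Bool := anyL P fun p =>
  (anyL L fun a => Nat.beq (a.1 % p) 0 && !Nat.beq (a.2 % p) 0 && !anyL L fun b => Nat.beq b.2 (p * a.2) && Nat.beq (a.1 % b.1) 0) ||
  force (Nat.gcd N (p ^ 60)) fun q => force (sm N L q) fun s => !Nat.beq (s % q) 0 || (Nat.beq s q && !Nat.beq (N / q % p) 0)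

def skip (N : ℕ) (P : List ℕ) (acc : List (ℕ × ℕ)) (c o : ℕ) : Bool :=
  (anyL acc fun b => Nat.beq b.1 c && Nat.blt o b.2) || anyL P fun p =>
    (Nat.beq (o % p) 0 && !Nat.beq o p && !anyL acc fun b => Nat.beq (b.2 * p) o && Nat.beq (b.1 % c) 0) ||
    (Nat.beq (N % (p * p)) 0 && !Nat.beq (c % (p * p)) 0 && Nat.beq (p ^ 60 % o) 0)

def osr (N : ℕ) (P : List ℕ) : List ℕ → List (ℕ × ℕ) → Bool
  | [], acc => bad N P acc
  | c :: cs, acc => allL (dv 400 c 2) fun o => force o fun o =>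
      Nat.beq o 1 || (!Nat.beq o 0 && (skip N P acc c o || osr N P cs ((c, o) :: acc)))

def leaf (k : ℕ) (g : ℕ → List ℕ → Bool) (N : ℕ) (cs : List ℕ) : Bool :=
  g N cs || forceL (pf 400 N 2) fun P => (anyL P fun p => (memL p cs && !okc k p (cs.count p)) ||
    force (N / Nat.gcd N (p ^ 60)) fun n => !Nat.beq (n % p) 0 &&
      Nat.blt ((cs.filter fun c => Nat.beq (c % p) 0).map fun c => N / c).sum n) || osr N P cs []

def addno (k : ℕ) (acc : List ℕ) (x : ℕ) : Bool := anyL [5, 7, 11, 13, 17, 19] fun p =>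
  memL p acc && !Nat.beq x p && (Nat.beq (x % p) 0 || !okc k p (acc.count p))

def srch (k : ℕ) (g : ℕ → List ℕ → Bool) : ℕ → ℕ → ℕ → ℕ → List ℕ → Bool
  | 0, a, b, lo, acc => allL (dv 400 b 2) fun d => force d fun d => !Nat.beq d 0 && force (b / d * (d + 1)) fun y =>
      !Nat.beq (y % a) 0 || force (y / a) fun x => Nat.blt x lo || force (x * d) fun N =>
        (anyL acc fun c => !Nat.beq (N % c) 0) || leaf k g N (x :: acc)
  | m + 1, a, b, lo, acc => force (max lo (b / a + 1)) fun s => allLt ((m + 3) * b / a + 1 - s) fun i => force (s + i) fun x =>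
      addno k acc x || force (a * x - b) fun a' => force (b * x) fun b' => force (Nat.gcd a' b') fun d =>
        force (a' / d) fun a'' => force (b' / d) fun b'' => srch k g m a'' b'' x (x :: acc)

theorem prime_of_lt {n p : ℕ} (h2 : 2 ≤ n) (h : n < p * p) (hm : ∀ r, r.Prime → r ∣ n → p ≤ r) : n.Prime := by
  by_contra hn
  have h1 := Nat.minFac_sq_le_self (by omega) hn
  have h3 := hm _ (Nat.minFac_prime (by omega)) (Nat.minFac_dvd n)
  nlinarith

theorem prime_of_dvd {n p : ℕ} (h2 : 2 ≤ p) (h : p ∣ n) (hm : ∀ r, r.Prime → r ∣ n → p ≤ r) : p.Prime := by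
  have h1 := Nat.minFac_prime (n := p) (by omega)
  have h3 := hm _ h1 ((Nat.minFac_dvd p).trans h)
  rwa [le_antisymm (Nat.minFac_le (by omega)) h3] at h1

theorem step_hm {n p : ℕ} (h : n % p ≠ 0) (hm : ∀ r, r.Prime → r ∣ n → p ≤ r) : ∀ r, r.Prime → r ∣ n → p + 1 ≤ r :=
  fun r hr hd => lt_of_le_of_ne (hm r hr hd) fun e => h (Nat.mod_eq_zero_of_dvd (e ▸ hd))

theorem pf_spec : ∀ (f n p : ℕ), 2 ≤ p → (∀ r, r.Prime → r ∣ n → p ≤ r) → ∀ q ∈ pf f n p, q.Prime ∧ q ∣ n
  | 0, _, _, _, _, q, hq => by simp [pf] at hq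
  | f + 1, n, p, h2, hm, q, hq => by
    simp only [pf, force_eq, Bool.cond_eq_ite, Nat.blt_eq, Nat.beq_eq] at hq
    split_ifs at hq with h1 h3 h4 h5
    · simp at hq
    · obtain rfl := List.mem_singleton.1 hq
      exact ⟨prime_of_lt (by omega) h1 hm, dvd_rfl⟩
    · have hd := Nat.div_dvd_of_dvd (Nat.dvd_of_mod_eq_zero h4)
      exact (pf_spec f _ p h2 (fun r hr e => hm r hr (e.trans hd)) q hq).imp_right (·.trans hd)
    · have hp := Nat.dvd_of_mod_eq_zero h4
      have hd := Nat.div_dvd_of_dvd hp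
      rcases List.mem_cons.1 hq with rfl | hq
      · exact ⟨prime_of_dvd h2 hp hm, hp⟩
      · exact (pf_spec f _ p h2 (fun r hr e => hm r hr (e.trans hd)) q hq).imp_right (·.trans hd)
    · exact pf_spec f n (p + 1) (by omega) (step_hm h4 hm) q hq

theorem dv_spec : ∀ (f n p : ℕ), 2 ≤ p → 0 < n → (∀ r, r.Prime → r ∣ n → p ≤ r) → ∀ d, d ∣ n → d ∈ dv f n p ∨ 0 ∈ dv f n p
  | 0, _, _, _, _, _, _, _ => by simp [dv]
  | f + 1, n, p, h2, h0, hm, d, hd => by
    simp only [dv, force_eq, forceL_eq, Bool.cond_eq_ite, Nat.blt_eq, Nat.beq_eq, filterL_eq]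
    split_ifs with h1 h4
    · by_cases h3 : n = 1
      · subst h3; simp [Nat.dvd_one.1 hd]
      · rcases (Nat.dvd_prime (prime_of_lt (by omega) h1 hm)).1 hd with rfl | rfl <;> simp
    · have hp := Nat.dvd_of_mod_eq_zero h4
      have hq := prime_of_dvd h2 hp hm
      have ih := dv_spec f (n / p) p h2 (Nat.div_pos (Nat.le_of_dvd h0 hp) (by omega))
        fun r hr e => hm r hr (e.trans (Nat.div_dvd_of_dvd hp))
      by_cases h5 : d ∣ n / p
      · exact (ih d h5).imp (List.mem_append_left _) (List.mem_append_left _)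
      · have h6 : p ∣ d := by
          by_contra h6
          refine h5 (Nat.Coprime.dvd_of_dvd_mul_left ((Nat.Prime.coprime_iff_not_dvd hq).2 h6).symm ?_)
          rwa [Nat.mul_div_cancel' hp]
        obtain ⟨e, rfl⟩ := h6
        refine (ih e (Nat.dvd_div_of_mul_dvd hd)).imp (fun h => List.mem_append_right _ ?_) (List.mem_append_left _)
        refine List.mem_filter.2 ⟨List.mem_map.2 ⟨e, h, rfl⟩, ?_⟩
        have : ¬ n / p % (p * e) = 0 := fun h => h5 (Nat.dvd_of_mod_eq_zero h)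
        simpa [← Nat.beq_eq] using this
    · exact dv_spec f n (p + 1) (by omega) h0 (step_hm h4 hm) d hd

theorem dv_all {n d : ℕ} {F : ℕ → Bool} (h : allL (dv 400 n 2) F = true) (h0 : F 0 = false) (hn : 0 < n) (hd : d ∣ n) :
    F d = true := by
  rcases dv_spec 400 n 2 le_rfl hn (fun r hr _ => hr.two_le) d hd with e | e
  · exact allL_iff.1 h d e
  · rw [allL_iff.1 h 0 e] at h0; cases h0

/-- centraliser orders and element orders of the non-trivial classes of a simple group of order `N` with `k` classes. -/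
structure CD (k N : ℕ) (L : List (ℕ × ℕ)) : Prop where
  pos : 0 < N
  srt : L.Pairwise fun a b => a.1 < b.1 ∨ a.1 = b.1 ∧ b.2 ≤ a.2
  dvd : ∀ a ∈ L, 1 < a.2 ∧ a.2 ∣ a.1 ∧ a.1 ∣ N
  eq : N = 1 + (L.map fun a => N / a.1).sum
  P : ∀ a ∈ L, ∀ p, p.Prime → p ∣ a.1 → ¬ p ∣ a.2 → ∃ b ∈ L, b.2 = p * a.2 ∧ b.1 ∣ a.1
  D : ∀ a ∈ L, ∀ p, p.Prime → p ∣ a.2 → a.2 ≠ p → ∃ b ∈ L, b.2 * p = a.2 ∧ a.1 ∣ b.1
  Q : ∀ a ∈ L, ∀ p, p.Prime → a.2 ∣ p ^ 60 → p * p ∣ N → p * p ∣ a.1
  C : ∀ p, p.Prime → p ∣ N → ∃ a ∈ L, a.2 = p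
  F : ∀ n, n ∣ N → n ∣ sm N L n
  S : ∀ p, p.Prime → p ∣ N → ∀ q, q ∣ N → q ∣ p ^ 60 → ¬ p ∣ N / q → sm N L q ≠ q
  E : ∀ p, p.Prime → p ∈ L.map Prod.fst → (∀ c ∈ L.map Prod.fst, p ∣ c → c = p) ∧
    ∃ e, (L.map Prod.fst).count p * e = p - 1 ∧ 2 ≤ e ∧ e + (L.map Prod.fst).count p ≤ k

theorem nb {a b : ℕ} : (!Nat.beq a b) = true ↔ a ≠ b := by
  rw [Bool.not_eq_true', ← Bool.not_eq_true, Nat.beq_eq]

theorem split (N n p : ℕ) : ∀ L : List (ℕ × ℕ), (∀ a ∈ L, ¬ a.2 ∣ n → p ∣ a.1) →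
    ∃ T, (L.map fun a => N / a.1).sum = ((L.filter fun a => Nat.beq (n % a.2) 0).map fun a => N / a.1).sum + T ∧
      T ≤ (((L.map Prod.fst).filter fun c => Nat.beq (c % p) 0).map fun c => N / c).sum ∧ ∀ a ∈ L, ¬ a.2 ∣ n → N / a.1 ≤ T
  | [], _ => ⟨0, by simp⟩
  | a :: L, h => by
    obtain ⟨T, e1, e2, e3⟩ := split N n p L fun b hb => h b (List.mem_cons_of_mem _ hb)
    by_cases h1 : a.2 ∣ n
    · refine ⟨T, ?_, ?_, fun b hb h2 => e3 b ((List.mem_cons.1 hb).resolve_left fun e => h2 (e ▸ h1)) h2⟩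
      · rw [List.filter_cons_of_pos (by simp [Nat.mod_eq_zero_of_dvd h1]), List.map_cons, List.map_cons, List.sum_cons,
          List.sum_cons, e1, add_assoc]
      · rw [List.map_cons, List.filter_cons]
        split_ifs
        · rw [List.map_cons, List.sum_cons]; exact e2.trans (Nat.le_add_left _ _)
        · exact e2
    · refine ⟨N / a.1 + T, ?_, ?_, fun b hb h2 => ?_⟩
      · rw [List.filter_cons_of_neg (by simpa [← Nat.dvd_iff_mod_eq_zero] using h1), List.map_cons, List.sum_cons, e1]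
        omega
      · rw [List.map_cons, List.filter_cons_of_pos (by simp [Nat.mod_eq_zero_of_dvd (h a (by simp) h1)]), List.map_cons,
          List.sum_cons]
        omega
      · rcases List.mem_cons.1 hb with rfl | hb
        · omega
        · exact (e3 b hb h2).trans (Nat.le_add_left _ _)

namespace CD
variable {k N : ℕ} {L : List (ℕ × ℕ)} (h : CD k N L)
include h

theorem okc {p : ℕ} (hp : p.Prime) (hm : p ∈ L.map Prod.fst) : okc k p ((L.map Prod.fst).count p) = true := by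
  obtain ⟨e, h1, h2, h3⟩ := (h.E p hp hm).2
  have h0 := List.count_pos_iff.2 hm
  simp only [K9.okc, Bool.and_eq_true, Nat.beq_eq, Nat.ble_eq, ← h1, Nat.mul_mod_right, Nat.mul_div_cancel_left _ h0]
  exact ⟨⟨trivial, h2⟩, h3⟩

theorem not_bad {P : List ℕ} (hP : ∀ p ∈ P, p.Prime ∧ p ∣ N) : bad N P L ≠ true := by
  intro hb
  simp only [bad, anyL_iff, force_eq, Bool.or_eq_true, Bool.and_eq_true, nb, Nat.beq_eq] at hb
  obtain ⟨p, hp, ⟨a, ha, ⟨h1, h2⟩, h3⟩ | h1 | ⟨h1, h2⟩⟩ := hb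
  · obtain ⟨b, hb, h4, h5⟩ := h.P a ha p (hP p hp).1 (Nat.dvd_of_mod_eq_zero h1) fun e => h2 (Nat.mod_eq_zero_of_dvd e)
    rw [Bool.not_eq_true', ← Bool.not_eq_true, anyL_iff] at h3
    exact h3 ⟨b, hb, by simp [h4, Nat.mod_eq_zero_of_dvd h5]⟩
  · exact h1 (Nat.mod_eq_zero_of_dvd (h.F _ (Nat.gcd_dvd_left _ _)))
  · exact h.S p (hP p hp).1 (hP p hp).2 _ (Nat.gcd_dvd_left _ _) (Nat.gcd_dvd_right _ _)
      (fun e => h2 (Nat.mod_eq_zero_of_dvd e)) h1

theorem frob {p n : ℕ} (hp : p.Prime) (h1 : p ∣ N) (hn : n ∣ N) (h2 : ¬ p ∣ n) (h3 : ∀ d, d ∣ N → ¬ p ∣ d → d ∣ n) :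
    n ≤ (((L.map Prod.fst).filter fun c => Nat.beq (c % p) 0).map fun c => N / c).sum := by
  obtain ⟨T, e1, e2, e3⟩ := split N n p L fun a ha hd => by
    by_contra hc
    have := h.dvd a ha
    exact hd (h3 _ (this.2.1.trans this.2.2) fun e => hc (e.trans this.2.1))
  obtain ⟨a, ha, rfl⟩ := h.C p hp h1
  have h4 := (e3 a ha h2).trans' (Nat.div_pos (Nat.le_of_dvd h.pos (h.dvd a ha).2.2)
    (Nat.pos_of_dvd_of_pos (h.dvd a ha).2.2 h.pos))
  refine (Nat.le_of_dvd h4 ((Nat.dvd_add_right (h.F n hn)).1 ?_)).trans e2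
  rw [sm, add_assoc, ← e1, ← h.eq]
  exact hn

end CD

theorem not_skip {k N : ℕ} {R acc : List (ℕ × ℕ)} {a : ℕ × ℕ} (h : CD k N (R ++ a :: acc)) {P : List ℕ}
    (hP : ∀ p ∈ P, p.Prime ∧ p ∣ N) : skip N P acc a.1 a.2 ≠ true := by
  intro hb
  have ha : a ∈ R ++ a :: acc := by simp
  have hs := List.pairwise_append.1 h.srt
  simp only [skip, anyL_iff, Bool.or_eq_true, Bool.and_eq_true, nb, Nat.beq_eq, Nat.blt_eq] at hb
  obtain ⟨b, hb, h1, h2⟩ | ⟨p, hp, ⟨⟨h1, h2⟩, h3⟩ | ⟨⟨h1, h2⟩, h3⟩⟩ := hb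
  · have := (List.pairwise_cons.1 hs.2.1).1 b hb
    omega
  · obtain ⟨b, hb, h4, h5⟩ := h.D a ha p (hP p hp).1 (Nat.dvd_of_mod_eq_zero h1) h2
    rw [Bool.not_eq_true', ← Bool.not_eq_true, anyL_iff] at h3
    have h6 := h.dvd b hb
    have h7 := Nat.le_of_dvd (Nat.pos_of_dvd_of_pos h6.2.2 h.pos) h5
    have h8 : b.2 < a.2 := by have := (hP p hp).1.two_le; nlinarith
    refine h3 ⟨b, ?_, by simp [h4, Nat.mod_eq_zero_of_dvd h5]⟩
    rcases List.mem_append.1 hb with e | e
    · have := hs.2.2 b e a (by simp)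
      omega
    · exact (List.mem_cons.1 e).resolve_left fun e => by rw [e] at h8; omega
  · exact h2 (Nat.mod_eq_zero_of_dvd (h.Q a ha p (hP p hp).1 (Nat.dvd_of_mod_eq_zero h3) (Nat.dvd_of_mod_eq_zero h1)))

theorem not_osr {k N : ℕ} {P : List ℕ} (hP : ∀ p ∈ P, p.Prime ∧ p ∣ N) :
    ∀ (R acc : List (ℕ × ℕ)), CD k N (R.reverse ++ acc) → osr N P (R.map Prod.fst) acc ≠ true
  | [], acc, h => by simpa [osr] using (show CD k N acc by simpa using h).not_bad hP
  | a :: R, acc, h => by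
    intro hb
    rw [List.reverse_cons, List.append_assoc, List.singleton_append] at h
    have h1 := h.dvd a (by simp)
    have := dv_all hb rfl (Nat.pos_of_dvd_of_pos h1.2.2 h.pos) h1.2.1
    simp only [force_eq, Bool.or_eq_true, Bool.and_eq_true, Nat.beq_eq] at this
    rcases this with e | ⟨-, e | e⟩
    · omega
    · exact not_skip h hP e
    · exact not_osr hP R (a :: acc) h e

theorem CD.leaf {k N : ℕ} {L : List (ℕ × ℕ)} (h : CD k N L) {g : ℕ → List ℕ → Bool}
    (hb : leaf k g N (L.map Prod.fst).reverse = true) : g N (L.map Prod.fst).reverse = true := by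
  have hP := pf_spec 400 N 2 le_rfl fun r hr _ => hr.two_le
  simp only [K9.leaf, anyL_iff, force_eq, forceL_eq, Bool.or_eq_true, Bool.and_eq_true, nb, Nat.blt_eq, memL_iff,
    List.mem_reverse, List.count_reverse, List.filter_reverse, List.map_reverse, List.sum_reverse] at hb
  obtain hb | ⟨p, hp, ⟨h1, h2⟩ | ⟨h1, h2⟩⟩ | hb := hb
  · exact hb
  · rw [h.okc (hP p hp).1 h1] at h2; cases h2
  · have h3 : ¬ p ∣ N / N.gcd (p ^ 60) := fun e => h1 (Nat.mod_eq_zero_of_dvd e)
    refine absurd (h.frob (hP p hp).1 (hP p hp).2 (Nat.div_dvd_of_dvd (Nat.gcd_dvd_left _ _)) h3 fun d h4 h5 => ?_) (not_le.2 h2)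
    have h6 : d.Coprime (N.gcd (p ^ 60)) := Nat.Coprime.coprime_dvd_right (Nat.gcd_dvd_right _ _)
      (Nat.Coprime.pow_right _ (((hP p hp).1.coprime_iff_not_dvd).2 h5).symm)
    refine h6.dvd_of_dvd_mul_left ?_
    rwa [Nat.mul_div_cancel' (Nat.gcd_dvd_left _ _)]
  · refine absurd ?_ (not_osr (k := k) hP L.reverse [] (by simpa using h))
    rwa [List.map_reverse]

theorem sum_le {N x : ℕ} : ∀ R : List ℕ, (∀ c ∈ R, x ≤ c) → x * (R.map fun c => N / c).sum ≤ R.length * N
  | [], _ => by simp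
  | c :: R, h => by
    have h1 := sum_le (N := N) R fun c hc => h c (List.mem_cons_of_mem _ hc)
    have h2 := Nat.mul_le_mul_right (N / c) (h c (by simp))
    have h3 := Nat.mul_div_le N c
    simp only [List.map_cons, List.sum_cons, List.length_cons]
    nlinarith

theorem CD.srch {k N : ℕ} {L : List (ℕ × ℕ)} (h : CD k N L) {g : ℕ → List ℕ → Bool} :
    ∀ (m a b lo : ℕ) (acc R : List ℕ), L.map Prod.fst = acc.reverse ++ R → R.length = m + 1 → (∀ c ∈ R, lo ≤ c) → 0 < b →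
      a * N = b * (1 + (R.map fun c => N / c).sum) → srch k g m a b lo acc = true → g N (L.map Prod.fst).reverse = true
  | _, _, _, _, _, [], _, hl, _, _, _, _ => by simp at hl
  | 0, a, b, lo, acc, x :: R, hL, hl, hlo, hb, he, hs => by
    obtain rfl : R = [] := List.length_eq_zero_iff.1 (by simpa using hl)
    have hd : ∀ c ∈ L.map Prod.fst, c ∣ N := fun c hc => by
      obtain ⟨a, ha, rfl⟩ := List.mem_map.1 hc
      exact (h.dvd a ha).2.2
    obtain ⟨d, hN⟩ := hd x (by simp [hL])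
    have h0 := h.pos
    have hx : 0 < x := Nat.pos_of_ne_zero (by rintro rfl; omega)
    have hd0 : 0 < d := Nat.pos_of_ne_zero (by rintro rfl; omega)
    have e1 : a * (x * d) = b * (d + 1) := by
      simpa [hN, Nat.mul_div_cancel_left _ hx, add_comm] using he
    have h1 : d ∣ b := (show d.Coprime (d + 1) by simp).dvd_of_dvd_mul_right ⟨a * x, by rw [← e1]; ring⟩
    have h2 := dv_all hs (by simp) hb h1
    obtain ⟨u, rfl⟩ := h1
    have e2 : u * (d + 1) = a * x := Nat.eq_of_mul_eq_mul_left hd0 (by nlinarith)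
    have ha : 0 < a := Nat.pos_of_ne_zero (by rintro rfl; simp at e2; subst e2; simp at hb)
    simp only [force_eq, Nat.mul_div_cancel_left _ hd0, e2, Nat.mul_mod_right, Nat.mul_div_cancel_left _ ha, ← hN,
      Bool.or_eq_true, Bool.and_eq_true, nb, Nat.blt_eq, anyL_iff] at h2
    rcases h2.2 with e | e | ⟨c, hc, e⟩ | e
    · exact absurd rfl e
    · exact absurd (hlo x (by simp)) (not_le.2 e)
    · exact absurd (Nat.mod_eq_zero_of_dvd (hd c (by simp [hL, hc]))) e
    · exact h.leaf (by simpa [hL] using e)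
  | m + 1, a, b, lo, acc, x :: R, hL, hl, hlo, hb, he, hs => by
    have hd : ∀ c ∈ L.map Prod.fst, c ∣ N := fun c hc => by
      obtain ⟨a, ha, rfl⟩ := List.mem_map.1 hc
      exact (h.dvd a ha).2.2
    have hsr : (acc.reverse ++ x :: R).Pairwise (· ≤ ·) :=
      hL ▸ List.pairwise_map.2 (h.srt.imp fun e => by omega)
    obtain ⟨-, s2, s3⟩ := List.pairwise_append.1 hsr
    have s4 := (List.pairwise_cons.1 s2).1
    obtain ⟨d, hN⟩ := hd x (by simp [hL])
    have h0 := h.pos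
    have hx : 0 < x := Nat.pos_of_ne_zero (by rintro rfl; omega)
    have hd0 : 0 < d := Nat.pos_of_ne_zero (by rintro rfl; omega)
    have h1 := sum_le (N := N) R s4
    have hl' : R.length = m + 1 := by simpa using hl
    rw [List.map_cons, List.sum_cons, show N / x = d by rw [hN, Nat.mul_div_cancel_left _ hx]] at he
    rw [hl'] at h1
    generalize hS : (R.map fun c => N / c).sum = S at he h1
    have e1 : a * x * N = b * x * (1 + S) + b * N := by rw [mul_right_comm, he, hN]; ring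
    have l1 : b < a * x := lt_of_mul_lt_mul_right (a := N) (by rw [e1]; nlinarith [Nat.mul_pos hb hx]) (Nat.zero_le _)
    have ha : 0 < a := Nat.pos_of_ne_zero (by rintro rfl; omega)
    have l2 : x * a ≤ (m + 3) * b := le_of_mul_le_mul_right (a := N) (by
      have : x ≤ N := Nat.le_of_dvd h0 ⟨d, hN⟩
      rw [mul_comm x a, e1]; nlinarith [Nat.mul_le_mul_left b h1, Nat.mul_le_mul_left b this]) h0
    have l3 := (Nat.le_div_iff_mul_le ha).2 l2
    have l4 : b / a < x := (Nat.div_lt_iff_lt_mul ha).2 (by rwa [mul_comm])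
    have l5 := hlo x (by simp)
    simp only [K9.srch, force_eq, allLt_iff] at hs
    have h2 := hs (x - max lo (b / a + 1)) (by omega)
    rw [show max lo (b / a + 1) + (x - max lo (b / a + 1)) = x by omega, Bool.or_eq_true] at h2
    rcases h2 with e | e
    · simp only [addno, anyL_iff, Bool.or_eq_true, Bool.and_eq_true, nb, memL_iff, Nat.beq_eq] at e
      obtain ⟨p, hp, ⟨h3, h4⟩, h5⟩ := e
      have hp : p.Prime := by fin_cases hp <;> norm_num
      have h6 : p ∈ L.map Prod.fst := by simp [hL, h3]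
      rcases h5 with h5 | h5
      · exact absurd ((h.E p hp h6).1 x (by simp [hL]) (Nat.dvd_of_mod_eq_zero h5)) h4
      · have h7 := h.okc hp h6
        have h8 := s3 p (by simpa using h3) x (by simp)
        rw [hL, List.count_append, List.count_reverse, List.count_eq_zero_of_not_mem (l := x :: R) fun e => by
          rcases List.mem_cons.1 e with e | e
          · omega
          · have := s4 p e; omega] at h7
        rw [add_zero] at h7
        rw [h7] at h5; cases h5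
    · have g0 : 0 < Nat.gcd (a * x - b) (b * x) := Nat.gcd_pos_of_pos_right _ (Nat.mul_pos hb hx)
      refine CD.srch h m _ _ x (x :: acc) R (by simp [hL]) hl' s4
        (Nat.div_pos (Nat.gcd_le_right _ (Nat.mul_pos hb hx)) g0) (Nat.eq_of_mul_eq_mul_left g0 ?_) e
      rw [← mul_assoc, ← mul_assoc, Nat.mul_div_cancel' (Nat.gcd_dvd_left _ _), Nat.mul_div_cancel' (Nat.gcd_dvd_right _ _),
        hS, Nat.sub_mul, e1, Nat.add_sub_cancel]

end Cfsg.Agent.K9
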