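import Cfsg.Agent.K9.Num

/-! A faster class equation search `K9.srch2` with its soundness `K9.CD2.srch2` (helper28). -/
set_option autoImplicit false
namespace Cfsg.Agent.K9
open Cfsg.Agent.Comp

def nd (a b : ℕ) : Bool := Nat.ble 1 (Nat.mod b a)
def dd (a b : ℕ) : Bool := Nat.beq (Nat.mod b a) 0

def pw (G : ℕ → Bool) (q p w b : ℕ) (f : ℕ) : ℕ → ℕ → Bool :=
  Nat.rec (motive := fun _ => ℕ → ℕ → Bool) (fun _ _ => false) (fun _ ih t dt =>
    bor (nd t q) (bor (Nat.blt b (Nat.mul dt w)) (band (G dt) (force (Nat.mul t p) fun t' => force (Nat.mul dt p) fun dt' => ih t' dt')))) f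

def allD (w b : ℕ) (F : ℕ → Bool) (l : List ℕ) : ℕ → ℕ → Bool :=
  List.rec (motive := fun _ => ℕ → ℕ → Bool) (fun n d => band (Nat.beq n 1) (F d)) (fun p _ ih n d =>
    force (Nat.gcd n (Nat.pow p 60)) fun q => force (Nat.div n q) fun n' => pw (ih n') q p w b 62 1 d) l

def bad2 (N : ℕ) (P : List ℕ) (L : List (ℕ × ℕ)) : Bool := bor (bad N P L) (band (Nat.beq N 6048) (!anyL L fun a => Nat.beq a.2 4))

def skip2 (N : ℕ) (P : List ℕ) (acc : List (ℕ × ℕ)) (cs : List ℕ) (c o : ℕ) : Bool :=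
  bor (anyL P fun p => band (dd p c) (band (nd p o) (allL cs fun y => bor (nd y c) (nd (Nat.mul p o) y)))) (skip N P acc c o)

def osr2 (N : ℕ) (P : List ℕ) : List ℕ → List (ℕ × ℕ) → Bool
  | [], acc => bad2 N P acc
  | c :: cs, acc => allL (dv 400 c 2) fun o => force o fun o =>
      bor (Nat.beq o 1) (band (Nat.ble 1 o) (bor (skip2 N P acc cs c o) (osr2 N P cs ((c, o) :: acc))))

def sumd (N p : ℕ) (cs : List ℕ) : ℕ :=
  List.rec (motive := fun _ => ℕ) 0 (fun c _ ih => bif' (dd p c) (Nat.add (Nat.div N c) ih) ih) cs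

def leaf2 (k : ℕ) (g : ℕ → List ℕ → Bool) (N : ℕ) (cs : List ℕ) : Bool :=
  bor (g N cs) (forceL (pf 2000 N 2) fun P => bor (anyL P fun p =>
    bor (force (Nat.div N (Nat.gcd N (Nat.pow p 60))) fun n => band (nd p n) (Nat.blt (sumd N p cs) n))
    (band (memL p cs) (force (cs.count p) fun t => bor (!okc k p t) (!Nat.beq (N / ((p - 1) / t * p) % p) 1)))) (osr2 N P cs []))

def flag (acc : List ℕ) (c : ℕ) : Bool := band (Nat.beq (acc.countP fun y => dd c y) 1)
  (forceL (pf 400 c 2) fun P => anyL P fun p => band (allL acc fun y => bor (Nat.ble c y) (nd p y)) (anyL P fun q => !Nat.beq q p))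

def stp : List ℕ → ℕ
  | c :: c' :: acc => bif' (flag (c :: c' :: acc) c') c' (bif' (flag (c :: c' :: acc) c) c 1)
  | _ => 1

/-- `x` cannot follow `acc`; `M` is the product of `acc`, `B` the set of proper powers. -/
def no2 (B m M MM x : ℕ) : Bool := force (Nat.gcd x MM) fun g => bif' (Nat.beq m 0)
  (force (Nat.div x g) fun y => band (Nat.ble 2 y) (band (Nat.beq (Nat.gcd y M) 1)
    (bor (Nat.ble 2 g) (band (Nat.ble 27 x) (band (Nat.ble x 50000) (Nat.beq (Nat.land (Nat.shiftRight B x) 1) 0))))))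
  (band (Nat.beq g 1) (band (Nat.ble 27 x) (memL x (pf 400 x 2))))

def srch2 (k B : ℕ) (g : ℕ → List ℕ → Bool) (cut : List (List ℕ)) : ℕ → ℕ → ℕ → ℕ → List ℕ → Bool
  | 0, a, b, lo, acc => force (a * lo - b) fun w => force acc.prod fun M => force (M ^ 20) fun MM => forceL (pf 400 b 2) fun P => allD w b (fun d =>
      force (Nat.mul (Nat.div b d) (Nat.succ d)) fun y => bor (nd a y) (force (Nat.div y a) fun x => bor (Nat.blt x lo)
        (force (Nat.mul x d) fun N => bor (anyL acc fun c => nd c N)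
        (bor (band (Nat.blt lo x) (no2 B 0 M MM x)) (leaf2 k g N (x :: acc)))))) P b 1
  | m + 1, a, b, lo, acc => bor (decide (acc ∈ cut)) <| force (bif' (Nat.beq m 0) (stp acc) 1) fun st => force ((max lo (b / a + 1) + st - 1) / st) fun s =>
      force acc.prod fun M => force (M ^ 20) fun MM => forceL (filterL (fun p => memL p acc) [5, 7, 11, 13, 17, 19]) fun sp =>
      force sp.prod fun bp => force (bif' (anyL sp fun p => !okc k p (acc.count p)) 1 0) fun bd =>
      allLt ((5 * m + 11) * b / (5 * a) / st + 1 - s) fun i => force (Nat.mul (Nat.add s i) st) fun x =>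
      bor (band (Nat.blt lo x) (bor (Nat.beq bd 1) (bor (Nat.ble 2 (Nat.gcd x bp)) (no2 B m M MM x))))
        (force (Nat.sub (Nat.mul a x) b) fun a' => force (Nat.mul b x) fun b' => force (Nat.gcd a' b') fun d =>
        force (Nat.div a' d) fun a'' => force (Nat.div b' d) fun b'' => srch2 k B g cut m a'' b'' x (x :: acc))

/-- the proper powers up to 50000. -/
def ppb : ℕ := Nat.rec 0 (fun u ih => Nat.rec ih (fun a ih' => bif' (Nat.ble (Nat.pow u (a + 2)) 50000)
  (Nat.lor ih' (Nat.shiftLeft 1 (Nat.pow u (a + 2)))) ih') 15) 224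


theorem nd_iff {a b : ℕ} : nd a b = true ↔ ¬ a ∣ b := by
  rw [nd, Nat.ble_eq, Nat.dvd_iff_mod_eq_zero]; exact Nat.one_le_iff_ne_zero
theorem dd_iff {a b : ℕ} : dd a b = true ↔ a ∣ b := by rw [dd, Nat.beq_eq, Nat.dvd_iff_mod_eq_zero]; rfl
theorem ndiv (a b : ℕ) : Nat.div a b = a / b := rfl

theorem pw_spec {G : ℕ → Bool} {q p w b : ℕ} (hp : 0 < p) : ∀ f i t dt, pw G q p w b f t dt = true → t * p ^ i ∣ q →
    dt * p ^ i * w ≤ b → G (dt * p ^ i) = true
  | 0, _, _, _, h, _, _ => by cases h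
  | f + 1, i, t, dt, h, h1, h2 => by
    have h' : bor (nd t q) (bor (Nat.blt b (dt * w)) (band (G dt) (force (t * p) fun t' => force (dt * p) fun dt' =>
      pw G q p w b f t' dt'))) = true := h
    simp only [bor_eq, band_eq, force_eq, Bool.or_eq_true, Bool.and_eq_true, nd_iff, Nat.blt_eq] at h'
    rcases h' with e | e | ⟨e1, e2⟩
    · exact absurd ((Dvd.intro _ rfl).trans h1) e
    · exact absurd ((Nat.mul_le_mul_right w (Nat.le_mul_of_pos_right dt (pow_pos hp i))).trans h2) (not_le.2 e)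
    · cases i with
      | zero => simpa using e1
      | succ i =>
        have := pw_spec hp f i _ _ e2 (by rwa [pow_succ', ← mul_assoc] at h1) (by rwa [pow_succ', ← mul_assoc] at h2)
        rwa [pow_succ', ← mul_assoc]

theorem allD_spec {w b : ℕ} {F : ℕ → Bool} : ∀ (l : List ℕ) (n d e : ℕ), (∀ p ∈ l, p.Prime) → allD w b F l n d = true → 0 < n →
    e ∣ n → d * e * w ≤ b → F (d * e) = true
  | [], n, d, e, _, h, _, h1, _ => by
    have h' : band (Nat.beq n 1) (F d) = true := h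
    simp only [band_eq, Bool.and_eq_true, Nat.beq_eq] at h'
    obtain rfl : e = 1 := Nat.dvd_one.1 (h'.1 ▸ h1)
    rw [mul_one]; exact h'.2
  | p :: l, n, d, e, hl, h, h0, h1, h2 => by
    have h' : force (Nat.gcd n (p ^ 60)) (fun q => force (n / q) fun n' => pw (allD w b F l n') q p w b 62 1 d) = true := h
    simp only [force_eq] at h'
    have hp := hl p (by simp)
    have hq := Nat.gcd_dvd_left n (p ^ 60)
    obtain ⟨e1, e2, h3, h4, rfl⟩ := exists_dvd_and_dvd_of_dvd_mul ((Nat.mul_div_cancel' hq).symm ▸ h1)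
    obtain ⟨i, -, rfl⟩ := (Nat.dvd_prime_pow hp).1 (h3.trans (Nat.gcd_dvd_right _ _))
    have h5 : 0 < n / n.gcd (p ^ 60) := Nat.div_pos (Nat.le_of_dvd h0 hq) (Nat.pos_of_dvd_of_pos hq h0)
    have h6 := pw_spec hp.pos _ i _ _ h' (by rwa [one_mul]) ((Nat.mul_le_mul_right w (by
      rw [← mul_assoc]; exact Nat.le_mul_of_pos_right _ (Nat.pos_of_dvd_of_pos h4 h5))).trans h2)
    rw [← mul_assoc] at h2 ⊢
    exact allD_spec l _ _ _ (fun q hq => hl q (List.mem_cons_of_mem _ hq)) h6 h5 h4 h2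

theorem sumd_eq (N p : ℕ) : ∀ cs : List ℕ, sumd N p cs = ((cs.filter fun c => Nat.beq (c % p) 0).map fun c => N / c).sum
  | [] => rfl
  | c :: cs => by
    change bif' (Nat.beq (c % p) 0) (N / c + sumd N p cs) (sumd N p cs) = _
    rw [sumd_eq N p cs, List.filter_cons]
    cases Nat.beq (c % p) 0 <;> simp

theorem ppb_spec {p a : ℕ} (hp : 2 ≤ p) (h : p ^ (a + 2) ≤ 50000) : Nat.land (Nat.shiftRight ppb (p ^ (a + 2))) 1 ≠ 0 := by
  have key : force ppb (fun B => allLt 224 fun u => allLt 14 fun a => bor (Nat.blt 50000 (u ^ (a + 2)))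
      (Nat.ble 1 (Nat.land (Nat.shiftRight B (u ^ (a + 2))) 1))) = true := by decide +kernel
  have h1 : p < 224 := by
    by_contra c
    have : 224 ^ 2 ≤ p ^ (a + 2) := (Nat.pow_le_pow_left (by omega) 2).trans (Nat.pow_le_pow_right (by omega) (by omega))
    omega
  have h2 : a < 14 := by
    by_contra c
    have : 2 ^ 16 ≤ p ^ (a + 2) := (Nat.pow_le_pow_right (by omega) (by omega)).trans (Nat.pow_le_pow_left hp (a + 2))
    omega
  simp only [force_eq, allLt_iff, bor_eq, Bool.or_eq_true, Nat.blt_eq, Nat.ble_eq] at key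
  have := key p h1 a h2
  omega

structure CD2 (k N : ℕ) (L : List (ℕ × ℕ)) : Prop extends CD k N L where
  k10 : k ≤ 10
  five : ∀ a ∈ L, 5 * a.1 ≤ N
  E2 : ∀ p, p.Prime → p ∈ L.map Prod.fst → ∀ e, (L.map Prod.fst).count p * e = p - 1 → ∃ n, N = n * (e * p) ∧ n % p = 1
  A : N = 6048 → ∃ a ∈ L, a.2 = 4

namespace CD
variable {k N : ℕ} {L : List (ℕ × ℕ)} (h : CD k N L)
include h

theorem cs_pos {c : ℕ} (hc : c ∈ L.map Prod.fst) : 0 < c ∧ c ∣ N := by
  obtain ⟨a, ha, rfl⟩ := List.mem_map.1 hc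
  exact ⟨Nat.pos_of_dvd_of_pos (h.dvd a ha).2.2 h.pos, (h.dvd a ha).2.2⟩

theorem three {c p q : ℕ} (hc : c ∈ L.map Prod.fst) (hp : p.Prime) (hq : q.Prime) (hpq : q ≠ p) (h1 : p ∣ c) (h2 : q ∣ c)
    (hn : ∀ y ∈ L.map Prod.fst, y < c → ¬ p ∣ y) : 3 ≤ (L.map Prod.fst).countP fun y => dd c y := by
  obtain ⟨a0, ha0, e0⟩ := List.mem_map.1 hc
  obtain ⟨a, ha, hm⟩ := (L.toFinset.filter (·.1 = c)).exists_max_image (·.2) ⟨a0, by simp [ha0, e0]⟩
  simp only [Finset.mem_filter, List.mem_toFinset, and_imp] at ha hm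
  obtain ⟨ha, rfl⟩ := ha
  have a1 := (h.dvd a ha).1
  have key : ∀ r, r.Prime → r ∣ a.1 → (r = p ∨ p ∣ a.2) → r ∣ a.2 := fun r hr h3 h4 => by
    by_contra c
    obtain ⟨b, hb, h5, h6⟩ := h.P a ha r hr h3 c
    rcases (Nat.le_of_dvd (h.cs_pos hc).1 h6).lt_or_eq with l | l
    · refine hn b.1 (List.mem_map_of_mem hb) l (dvd_trans ?_ (h.dvd b hb).2.1)
      rw [h5]
      exact h4.elim (fun e => e ▸ Dvd.intro _ rfl) (Dvd.dvd.mul_left · _)
    · have := hm b hb l
      have := hr.two_le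
      nlinarith
  have p1 := key p hp h1 (.inl rfl)
  have q1 := key q hq h2 (.inr p1)
  obtain ⟨b, hb, b1, b2⟩ := h.D a ha p hp p1 fun e => hpq ((Nat.prime_dvd_prime_iff_eq hq hp).1 (e ▸ q1))
  obtain ⟨d, hd, d1, d2⟩ := h.D a ha q hq q1 fun e => hpq ((Nat.prime_dvd_prime_iff_eq hp hq).1 (e ▸ p1)).symm
  have n1 : a ≠ b := fun e => by rw [← e] at b1; have := hp.two_le; nlinarith
  have n2 : a ≠ d := fun e => by rw [← e] at d1; have := hq.two_le; nlinarith
  have n3 : b ≠ d := fun e => hpq (Nat.eq_of_mul_eq_mul_left (by have := (h.dvd d hd).1; omega) (d1.trans (e ▸ b1.symm)))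
  rw [List.countP_map, List.countP_eq_length_filter]
  refine (List.subperm_of_subset (l₁ := [a, b, d]) (by simp [n1, n2, n3]) ?_).length_le
  simp [List.subset_def, ha, hb, hd, dd_iff, b2, d2]

theorem le26 (hk : k ≤ 10) {p : ℕ} (hp : p.Prime) (hm : p ∈ L.map Prod.fst) : p ≤ 26 := by
  obtain ⟨e, h1, h2, h3⟩ := (h.E p hp hm).2
  generalize (L.map Prod.fst).count p = t at h1 h3
  have : t * e ≤ 25 := by nlinarith [sq_nonneg ((t : ℤ) - e)]
  omega

theorem sorted : (L.map Prod.fst).Pairwise (· ≤ ·) := List.pairwise_map.2 (h.srt.imp fun e => by omega)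

theorem no2 (hk : k ≤ 10) {m x : ℕ} {acc R : List ℕ} (hL : L.map Prod.fst = acc.reverse ++ x :: R) (hlt : ∀ y ∈ acc, y < x)
    (hR : m = 0 → R.length ≤ 1) : no2 ppb m acc.prod (acc.prod ^ 20) x ≠ true := by
  intro hb
  have hx : x ∈ L.map Prod.fst := by simp [hL]
  have x0 := (h.cs_pos hx).1
  have s4 := (List.pairwise_cons.1 (List.pairwise_append.1 (hL ▸ h.sorted)).2.1).1
  simp only [K9.no2, force_eq, bif'_eq, band_eq, bor_eq, Nat.beq_eq, ndiv] at hb
  split_ifs at hb with hm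
  · simp only [Bool.and_eq_true, Bool.or_eq_true, Nat.beq_eq, Nat.ble_eq] at hb
    obtain ⟨h1, h2, h3⟩ := hb
    have hp := Nat.minFac_prime (n := x / x.gcd (acc.prod ^ 20)) (by omega)
    have h4 := Nat.minFac_dvd (x / x.gcd (acc.prod ^ 20))
    generalize Nat.minFac _ = p at hp h4
    have h5 : ¬ p ∣ acc.prod := fun c => hp.one_lt.ne' (Nat.dvd_one.1 (h2 ▸ Nat.dvd_gcd h4 c))
    have h6 : p ∣ x := h4.trans (Nat.div_dvd_of_dvd (Nat.gcd_dvd_left _ _))
    have key : ∀ q, q.Prime → q ∣ x → q = p := fun q hq h7 => by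
      by_contra c
      have := h.three hx hp hq c h6 h7 fun y hy l e => h5 (e.trans (List.dvd_prod ?_))
      · rw [hL, List.countP_append, List.countP_eq_zero.2 fun y hy e => ?_] at this
        · have h8 := List.countP_le_length (p := fun y => dd x y) (l := x :: R)
          have := hR hm
          rw [List.length_cons] at h8
          omega
        · have hy := List.mem_reverse.1 hy
          exact absurd (Nat.le_of_dvd (h.cs_pos (by simp [hL, hy])).1 (dd_iff.1 e)) (not_le.2 (hlt y hy))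
      · rw [hL, List.mem_append, List.mem_reverse, List.mem_cons] at hy
        rcases hy with e | e | e
        · exact e
        · omega
        · have := s4 y e; omega
    rcases h3 with h3 | ⟨h3, h7, h8⟩
    · have hq := Nat.minFac_prime (n := x.gcd (acc.prod ^ 20)) (by omega)
      have := key _ hq ((Nat.minFac_dvd _).trans (Nat.gcd_dvd_left _ _))
      exact h5 (this ▸ hq.dvd_of_dvd_pow ((Nat.minFac_dvd _).trans (Nat.gcd_dvd_right _ _)))
    · obtain ⟨a, ha⟩ : ∃ a, x = p ^ a := ⟨_, Nat.eq_prime_pow_of_unique_prime_dvd x0.ne' fun hq e => key _ hq e⟩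
      rcases a with _ | _ | a
      · simp at ha; omega
      · have := h.le26 hk hp (by simpa [ha] using hx)
        simp at ha; omega
      · exact ppb_spec hp.two_le (ha ▸ h7) (ha ▸ h8)
  · simp only [Bool.and_eq_true, Nat.beq_eq, Nat.ble_eq, memL_iff] at hb
    have := h.le26 hk (pf_spec 400 x 2 le_rfl (fun r hr _ => hr.two_le) x hb.2.2).1 hx
    omega

theorem flag {x y c : ℕ} {acc : List ℕ} (hL : L.map Prod.fst = acc.reverse ++ [x, y]) (hc : c ∈ acc) (hf : flag acc c = true) :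
    c ∣ x := by
  simp only [K9.flag, band_eq, bor_eq, forceL_eq, Bool.and_eq_true, Bool.or_eq_true, anyL_iff, allL_iff, Nat.beq_eq, Nat.ble_eq,
    nd_iff, nb] at hf
  obtain ⟨h1, p, hp, h2, q, hq, h3⟩ := hf
  have hP := pf_spec 400 c 2 le_rfl fun r hr _ => hr.two_le
  have s3 := (List.pairwise_append.1 (hL ▸ h.sorted)).2.2 c (by simpa using hc)
  have := h.three (by simp [hL, hc]) (hP p hp).1 (hP q hq).1 h3 (hP p hp).2 (hP q hq).2 fun z hz l => by
    rw [hL, List.mem_append, List.mem_reverse] at hz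
    rcases hz with e | e
    · exact (h2 z e).resolve_left (by omega)
    · have := s3 z e; omega
  rw [hL, List.countP_append, List.countP_reverse, h1] at this
  by_contra c1
  rw [List.countP_cons_of_neg (by simpa [dd_iff] using c1)] at this
  have := List.countP_le_length (p := fun z => dd c z) (l := [y])
  simp only [List.length_singleton] at this
  omega

theorem stp {x y : ℕ} : ∀ {acc : List ℕ}, L.map Prod.fst = acc.reverse ++ [x, y] → stp acc ∣ x
  | [], _ => one_dvd _
  | [_], _ => one_dvd _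
  | c :: c' :: acc, hL => by
    simp only [K9.stp, bif'_eq]
    split_ifs with h1 h2
    exacts [h.flag hL (by simp) h1, h.flag hL (by simp) h2, one_dvd _]

end CD

theorem not_osr2 {k N : ℕ} {P : List ℕ} (hP : ∀ p ∈ P, p.Prime ∧ p ∣ N) :
    ∀ (R acc : List (ℕ × ℕ)), CD2 k N (R.reverse ++ acc) → osr2 N P (R.map Prod.fst) acc ≠ true
  | [], acc, h => by
    intro hb
    have h : CD2 k N acc := by simpa using h
    simp only [List.map_nil, osr2, bad2, bor_eq, band_eq, Bool.or_eq_true, Bool.and_eq_true, Nat.beq_eq] at hb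
    rcases hb with hb | ⟨h1, h2⟩
    · exact h.toCD.not_bad hP hb
    · obtain ⟨a, ha, e⟩ := h.A h1
      rw [Bool.not_eq_true', ← Bool.not_eq_true, anyL_iff] at h2
      exact h2 ⟨a, ha, by simp [e]⟩
  | a :: R, acc, h => by
    intro hb
    rw [List.reverse_cons, List.append_assoc, List.singleton_append] at h
    have ha : a ∈ R.reverse ++ a :: acc := by simp
    have h1 := h.dvd a ha
    have := dv_all hb rfl (Nat.pos_of_dvd_of_pos h1.2.2 h.pos) h1.2.1
    simp only [force_eq, skip2, bor_eq, band_eq, Bool.or_eq_true, Bool.and_eq_true, Nat.beq_eq, anyL_iff, allL_iff, nd_iff,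
      dd_iff, Nat.mul_eq] at this
    rcases this with e | ⟨-, (⟨p, hp, e1, e2, e3⟩ | e) | e⟩
    · omega
    · obtain ⟨b, hb, h2, h3⟩ := h.P a ha p (hP p hp).1 e1 e2
      have h4 := Nat.le_of_dvd (Nat.pos_of_dvd_of_pos h1.2.2 h.pos) h3
      have h5 : a.2 < b.2 := by have := (hP p hp).1.two_le; nlinarith
      rcases List.mem_append.1 hb with e | e
      · exact (e3 b.1 (List.mem_map_of_mem (List.mem_reverse.1 e))).elim (· h3) (· (h2 ▸ (h.dvd b hb).2.1))
      · rcases List.mem_cons.1 e with rfl | e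
        · omega
        · have := (List.pairwise_cons.1 (List.pairwise_append.1 h.srt).2.1).1 b e
          omega
    · exact not_skip h.toCD hP e
    · exact not_osr2 hP R (a :: acc) h e

theorem CD2.leaf2 {k N : ℕ} {L : List (ℕ × ℕ)} (h : CD2 k N L) {g : ℕ → List ℕ → Bool}
    (hb : leaf2 k g N (L.map Prod.fst).reverse = true) : g N (L.map Prod.fst).reverse = true := by
  have hP := pf_spec 2000 N 2 le_rfl fun r hr _ => hr.two_le
  simp only [K9.leaf2, anyL_iff, force_eq, forceL_eq, bor_eq, band_eq, Bool.or_eq_true, Bool.and_eq_true, nb, Nat.blt_eq, memL_iff,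
    List.mem_reverse, List.count_reverse, List.filter_reverse, List.map_reverse, List.sum_reverse, sumd_eq, nd_iff, ndiv,
    Nat.pow_eq] at hb
  obtain hb | ⟨p, hp, ⟨h3, h2⟩ | ⟨h1, h2 | h2⟩⟩ | hb := hb
  · exact hb
  · refine absurd (h.frob (hP p hp).1 (hP p hp).2 (Nat.div_dvd_of_dvd (Nat.gcd_dvd_left _ _)) h3 fun d h4 h5 => ?_) (not_le.2 h2)
    have h6 : d.Coprime (N.gcd (p ^ 60)) := Nat.Coprime.coprime_dvd_right (Nat.gcd_dvd_right _ _)
      (Nat.Coprime.pow_right _ (((hP p hp).1.coprime_iff_not_dvd).2 h5).symm)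
    refine h6.dvd_of_dvd_mul_left ?_
    rwa [Nat.mul_div_cancel' (Nat.gcd_dvd_left _ _)]
  · rw [h.okc (hP p hp).1 h1] at h2; cases h2
  · obtain ⟨e, e1, e2, -⟩ := (h.E p (hP p hp).1 h1).2
    obtain ⟨n, n1, n2⟩ := h.E2 p (hP p hp).1 h1 e e1
    rw [← e1, Nat.mul_div_cancel_left _ (List.count_pos_iff.2 h1), n1,
      Nat.mul_div_cancel _ (Nat.mul_pos (by omega) (hP p hp).1.pos)] at h2
    exact absurd n2 h2
  · refine absurd ?_ (not_osr2 (k := k) hP L.reverse [] (by simpa using h))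
    rwa [List.map_reverse]

theorem CD2.srch2 {k N : ℕ} {L : List (ℕ × ℕ)} (h : CD2 k N L) {g : ℕ → List ℕ → Bool} {cut : List (List ℕ)}
    (hcut : ∀ acc ∈ cut, ∀ R, L.map Prod.fst = acc.reverse ++ R → g N (L.map Prod.fst).reverse = true) :
    ∀ (m a b lo : ℕ) (acc R : List ℕ), L.map Prod.fst = acc.reverse ++ R → R.length = m + 1 → (∀ c ∈ R, lo ≤ c) →
      (∀ c ∈ acc, c ≤ lo) → 0 < b → a * N = b * (1 + (R.map fun c => N / c).sum) → srch2 k ppb g cut m a b lo acc = true →
      g N (L.map Prod.fst).reverse = true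
  | _, _, _, _, _, [], _, hl, _, _, _, _, _ => by simp at hl
  | 0, a, b, lo, acc, x :: R, hL, hl, hlo, hacc, hb, he, hs => by
    obtain rfl : R = [] := List.length_eq_zero_iff.1 (by simpa using hl)
    obtain ⟨hx, d, hN⟩ := h.cs_pos (c := x) (by simp [hL])
    have h0 := h.pos
    have hd0 : 0 < d := Nat.pos_of_ne_zero (by rintro rfl; omega)
    have e1 : a * (x * d) = b * (d + 1) := by
      simpa [hN, Nat.mul_div_cancel_left _ hx, add_comm] using he
    have h1 : d ∣ b := (show d.Coprime (d + 1) by simp).dvd_of_dvd_mul_right ⟨a * x, by rw [← e1]; ring⟩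
    have l5 := hlo x (by simp)
    simp only [K9.srch2, force_eq, forceL_eq] at hs
    have h2 := allD_spec _ b 1 d (fun p hp => (pf_spec 400 b 2 le_rfl (fun r hr _ => hr.two_le) p hp).1) hs hb h1 (by
      rw [one_mul, Nat.mul_sub, Nat.sub_le_iff_le_add]
      nlinarith [Nat.mul_le_mul_left (a * d) l5])
    obtain ⟨u, rfl⟩ := h1
    have e2 : u * (d + 1) = a * x := Nat.eq_of_mul_eq_mul_left hd0 (by nlinarith)
    have ha : 0 < a := Nat.pos_of_ne_zero (by rintro rfl; simp at e2; subst e2; simp at hb)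
    simp only [one_mul, ndiv, Nat.mul_eq, Nat.succ_eq_add_one, Nat.mul_div_cancel_left _ hd0, e2, Nat.mul_div_cancel_left _ ha, ← hN,
      bor_eq, band_eq, Bool.or_eq_true, Bool.and_eq_true, nd_iff, Nat.blt_eq, anyL_iff] at h2
    rcases h2 with e | e | ⟨c, hc, e⟩ | ⟨e, e'⟩ | e
    · exact absurd (Dvd.intro _ rfl) e
    · exact absurd l5 (not_le.2 e)
    · exact absurd (h.cs_pos (by simp [hL, hc])).2 e
    · exact absurd e' (h.no2 h.k10 hL (fun y hy => (hacc y hy).trans_lt e) fun _ => by simp)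
    · exact h.leaf2 (by simpa [hL] using e)
  | m + 1, a, b, lo, acc, x :: R, hL, hl, hlo, hacc, hb, he, hs => by
    obtain ⟨-, s2, s3⟩ := List.pairwise_append.1 (hL ▸ h.sorted)
    have s4 := (List.pairwise_cons.1 s2).1
    have hxm : x ∈ L.map Prod.fst := by simp [hL]
    obtain ⟨hx, d, hN⟩ := h.cs_pos hxm
    have h0 := h.pos
    have h1 := sum_le (N := N) R s4
    have hl' : R.length = m + 1 := by simpa using hl
    rw [List.map_cons, List.sum_cons, show N / x = d by rw [hN, Nat.mul_div_cancel_left _ hx]] at he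
    rw [hl'] at h1
    generalize hS : (R.map fun c => N / c).sum = S at he h1
    have e1 : a * x * N = b * x * (1 + S) + b * N := by rw [mul_right_comm, he, hN]; ring
    have l1 : b < a * x := lt_of_mul_lt_mul_right (a := N) (by rw [e1]; nlinarith [Nat.mul_pos hb hx]) (Nat.zero_le _)
    have ha : 0 < a := Nat.pos_of_ne_zero (by rintro rfl; omega)
    have l2 : x * (5 * a) ≤ (5 * m + 11) * b := le_of_mul_le_mul_right (a := N) (by
      obtain ⟨a0, ha0, rfl⟩ := List.mem_map.1 hxm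
      have := h.five a0 ha0
      rw [show a0.1 * (5 * a) * N = 5 * (a * a0.1 * N) by ring, e1]
      nlinarith [Nat.mul_le_mul_left b h1, Nat.mul_le_mul_left b this]) h0
    have l3 := (Nat.le_div_iff_mul_le (by omega)).2 l2
    have l4 : b / a < x := (Nat.div_lt_iff_lt_mul ha).2 (by rwa [mul_comm])
    have l5 := hlo x (by simp)
    simp only [K9.srch2, force_eq, forceL_eq, bor_eq, band_eq, Bool.or_eq_true, decide_eq_true_eq, allLt_iff] at hs
    rcases hs with hs | hs
    · exact hcut acc hs _ hL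
    obtain ⟨j, hj⟩ : bif' (Nat.beq m 0) (stp acc) 1 ∣ x := by
      rw [bif'_eq]
      split_ifs with c
      · obtain ⟨y, rfl⟩ := List.length_eq_one_iff.1 (show R.length = 1 by have := nbeq.1 c; omega)
        exact h.stp hL
      · exact one_dvd _
    generalize bif' (Nat.beq m 0) (stp acc) 1 = st at hs hj
    have st0 : 0 < st := Nat.pos_of_ne_zero (by rintro rfl; omega)
    have j1 : (max lo (b / a + 1) + st - 1) / st ≤ j := Nat.le_of_lt_succ ((Nat.div_lt_iff_lt_mul st0).2 (by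
      rw [Nat.succ_mul, mul_comm, ← hj]; omega))
    have j2 : j ≤ (5 * m + 11) * b / (5 * a) / st := (Nat.le_div_iff_mul_le st0).2 (by rw [mul_comm, ← hj]; exact l3)
    have h2 := hs (j - (max lo (b / a + 1) + st - 1) / st) (by omega)
    rw [Nat.add_eq, Nat.add_sub_cancel' j1, Nat.mul_eq, mul_comm j, ← hj] at h2
    rcases h2 with e | e
    · simp only [Bool.and_eq_true, Bool.or_eq_true, Nat.blt_eq, Nat.ble_eq, Nat.beq_eq, filterL_eq, bif'_eq] at e
      have hsp : ∀ p ∈ [5, 7, 11, 13, 17, 19].filter (fun p => memL p acc), p.Prime ∧ p ∈ acc := fun p hp => by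
        obtain ⟨h3, h4⟩ := List.mem_filter.1 hp
        exact ⟨by fin_cases h3 <;> norm_num, memL_iff.1 h4⟩
      have hlt : ∀ y ∈ acc, y < x := fun y hy => (hacc y hy).trans_lt e.1
      rcases e.2 with e | e | e
      · split_ifs at e with c
        · obtain ⟨p, hp, h5⟩ := anyL_iff.1 c
          have h7 := h.okc (hsp p hp).1 (by simp [hL, (hsp p hp).2])
          have h8 := hlt p (hsp p hp).2
          rw [hL, List.count_append, List.count_reverse, List.count_eq_zero_of_not_mem (l := x :: R) fun e => by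
            rcases List.mem_cons.1 e with e | e
            · omega
            · have := s4 p e; omega, add_zero] at h7
          rw [h7] at h5; cases h5
      · have hq := Nat.minFac_prime (n := x.gcd _) (Nat.ne_of_gt e)
        obtain ⟨p, hp, h3⟩ := (Prime.dvd_prod_iff hq.prime).1 ((Nat.minFac_dvd _).trans (Nat.gcd_dvd_right _ _))
        have h4 := (Nat.prime_dvd_prime_iff_eq hq (hsp p hp).1).1 h3
        have h5 := (h.E p (hsp p hp).1 (by simp [hL, (hsp p hp).2])).1 x hxm (h4 ▸ (Nat.minFac_dvd _).trans (Nat.gcd_dvd_left _ _))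
        exact absurd (hlt p (hsp p hp).2) (by omega)
      · exact absurd e (h.no2 h.k10 hL hlt fun c => by omega)
    · have g0 : 0 < Nat.gcd (a * x - b) (b * x) := Nat.gcd_pos_of_pos_right _ (Nat.mul_pos hb hx)
      refine CD2.srch2 h hcut m _ _ x (x :: acc) R (by simp [hL]) hl' s4
        (fun c hc => (List.mem_cons.1 hc).elim le_of_eq fun hc => (hacc c hc).trans l5)
        (Nat.div_pos (Nat.gcd_le_right _ (Nat.mul_pos hb hx)) g0) (Nat.eq_of_mul_eq_mul_left g0 ?_) e
      simp only [ndiv, Nat.mul_eq, Nat.sub_eq]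
      rw [← mul_assoc, ← mul_assoc, Nat.mul_div_cancel' (Nat.gcd_dvd_left _ _), Nat.mul_div_cancel' (Nat.gcd_dvd_right _ _),
        hS, Nat.sub_mul, e1, Nat.add_sub_cancel]

def g10 (N : ℕ) (cs : List ℕ) : Bool := bor (bif' (Nat.blt N 6000) (bor (memL N [60, 168, 360, 660, 1092, 2520, 4080])
  (!memL N [60, 168, 360, 504, 660, 1092, 2448, 2520, 3420, 4080, 5616])) (Nat.beq N 7920))
  (bor (band (memL 5 cs) (bor (memL N [29160, 92160, 174960, 21560, 30720, 58320, 349920]) (band (memL 7 cs)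
    (bor (memL N [40320, 34020, 29120]) (band (Nat.beq N 20160) (allL cs fun c => memL c [5, 7, 8, 9, 16, 32, 64]))))))
  (bor (band (memL 7 cs) (memL N [21504, 32256])) (band (memL 17 cs) (Nat.beq N 16320))))

end Cfsg.Agent.K9
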