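import Cfsg.Agent.K9.Num2

/-! The class equation search for ten classes, part E: `K9.run10E` (helper28). -/
set_option autoImplicit false
namespace Cfsg.Agent.K9
open Cfsg.Agent.Comp

set_option maxRecDepth 100000 in
theorem run10E : force ppb (fun B => srch2 10 B g10 [] 4 61 210 7 [7, 6, 5, 5]) = true := by decide +kernel

end Cfsg.Agent.K9
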