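import Cfsg.Agent.K9.Num

/-! The class equation search for nine classes: `K9.run9` (helper28). -/
set_option autoImplicit false
namespace Cfsg.Agent.K9
open Cfsg.Agent.Comp

def g9 (N : ℕ) (cs : List ℕ) : Bool := memL N [60, 168, 360, 504, 660, 1092, 2520] ||
  (Nat.blt N 6000 && !memL N [60, 168, 360, 504, 660, 1092, 2448, 2520, 3420, 4080, 5616]) ||
  (Nat.beq N 20160 && memL 5 cs && memL 7 cs)


set_option maxRecDepth 100000 in
theorem run9 : srch 9 g9 7 1 1 5 [] = true := by decide +kernel

end Cfsg.Agent.K9
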